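import Mathlib
import Cfsg.Agent.Char.Exceptional
import Cfsg.Agent.Char.Clifford
import Cfsg.Agent.Char.Quot
import Cfsg.Agent.Char.Values
import Cfsg.Agent.Block.Principal
import Cfsg.Agent.Block.ModExists
import Cfsg.Agent.FT.CohBasic

/-!
Brauer and Leonard: groups in which all non-identity elements of a Sylow subgroup `P` have the same
centralizer as `P`.
-/

set_option autoImplicit false
set_option linter.unusedSectionVars false

namespace Cfsg.Agent.Char.BL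

open Cfsg Cfsg.Agent.Char Cfsg.Agent.Block Cfsg.Agent.FT.Coh Subgroup
open scoped ComplexConjugate

variable {G : Type*} [Group G] [Fintype G] {p : ℕ} [hp : Fact p.Prime]

/-- The hypothesis, with names for the centralizer and the normalizer. -/
structure Star (P : Sylow p G) (C N : Subgroup G) : Prop where
  hC : centralizer ((P : Subgroup G) : Set G) = C
  hN : normalizer ((P : Subgroup G) : Set G) = N
  star : ∀ x ∈ (P : Subgroup G), x ≠ 1 → centralizer ({x} : Set G) = C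

variable {P : Sylow p G} {C N : Subgroup G} (h : Star P C N)
include h

theorem Star.comm {c y : G} (hc : c ∈ C) (hy : y ∈ (P : Subgroup G)) : y * c = c * y := by
  rw [← h.hC] at hc
  exact mem_centralizer_iff.1 hc y hy

theorem Star.mem_of_comm {c y : G} (hy : y ∈ (P : Subgroup G)) (h1 : y ≠ 1) (e : c * y = y * c) :
    c ∈ C := by
  rw [← h.star y hy h1]
  exact mem_centralizer_singleton_iff.2 e

theorem Star.le_C : (P : Subgroup G) ≤ C := fun x hx => by
  by_cases h1 : x = 1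
  · rw [h1]; exact C.one_mem
  · exact h.mem_of_comm hx h1 rfl

theorem Star.C_le_N : C ≤ N := by
  rw [← h.hC, ← h.hN]; exact centralizer_le_normalizer _

theorem Star.conj_mem {n y : G} (hn : n ∈ N) (hy : y ∈ (P : Subgroup G)) :
    n * y * n⁻¹ ∈ (P : Subgroup G) := by
  rw [← h.hN] at hn
  exact (mem_normalizer_iff.1 hn y).1 hy

theorem Star.conj_mem_C {n c : G} (hn : n ∈ N) (hc : c ∈ C) : n * c * n⁻¹ ∈ C := by
  rw [← h.hC, mem_centralizer_iff]
  intro y hy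
  have := h.comm hc (h.conj_mem (N.inv_mem hn) hy)
  calc y * (n * c * n⁻¹) = n * (n⁻¹ * y * n⁻¹⁻¹ * c) * n⁻¹ := by group
    _ = _ := by rw [this]; group

theorem Star.normal : (C.subgroupOf N).Normal := ⟨fun _ hc n => h.conj_mem_C n.2 hc⟩

theorem Star.mem_P {c : G} (hc : c ∈ C) (hk : ∃ k, orderOf c = p ^ k) : c ∈ (P : Subgroup G) := by
  obtain ⟨k, hk⟩ := hk
  have h1 : IsPGroup p (zpowers c) := IsPGroup.of_card (by rw [Nat.card_zpowers, hk])
  have h2 : zpowers c ≤ normalizer ((P : Subgroup G) : Set G) := by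
    rw [h.hN]; exact zpowers_le.2 (h.C_le_N hc)
  have h3 := P.is_maximal' (IsPGroup.to_sup_of_normal_right' h1 P.isPGroup' h2) le_sup_right
  rw [← h3]
  exact mem_sup_left (mem_zpowers c)

theorem Star.pPart_mem_P {c : G} (hc : c ∈ C) : pPart p c ∈ (P : Subgroup G) :=
  h.mem_P (pPart_mem hc) (orderOf_pPart p c)

theorem Star.ti : ∀ g : G, g ∉ N → ∀ t ∈ {a : G | a ∈ C ∧ p ∣ orderOf a},
    g * t * g⁻¹ ∈ {a : G | a ∈ C ∧ p ∣ orderOf a} → t = 1 := by
  rintro g hg t ⟨ht, ht'⟩ ⟨h1, h2⟩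
  exfalso
  apply hg
  have h3 := h.pPart_mem_P h1
  have h4 := pPart_ne_one_iff.2 h2
  rw [pPart_conj] at h3 h4
  rw [← h.hN]
  refine mem_normalizer_fintype fun y hy => h.mem_P (h.mem_of_comm h3 h4 ?_) ?_
  · have := h.comm (h.le_C hy) (h.pPart_mem_P ht)
    calc g * y * g⁻¹ * (g * pPart p t * g⁻¹) = g * (y * pPart p t) * g⁻¹ := by group
      _ = _ := by rw [← this]; group
  · obtain ⟨k, hk⟩ := IsPGroup.iff_orderOf.1 P.isPGroup' ⟨y, hy⟩
    refine ⟨k, ?_⟩
    rw [← hk, ← Subgroup.orderOf_coe]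
    exact (MulAut.conj g).orderOf_eq y

theorem Star.exists_comm {n : G} (hn : n ∈ N) (hn' : n ∉ C) {z : G} (hz : z ∈ (P : Subgroup G)) :
    ∃ y ∈ (P : Subgroup G), n * y * n⁻¹ * y⁻¹ = z := by
  let f : ↥(P : Subgroup G) → ↥(P : Subgroup G) := fun y =>
    ⟨n * y * n⁻¹ * (y : G)⁻¹, mul_mem (h.conj_mem hn y.2) (inv_mem y.2)⟩
  have hf : Function.Injective f := by
    intro x y e
    have e' : n * x * n⁻¹ * (x : G)⁻¹ = n * y * n⁻¹ * (y : G)⁻¹ := congrArg Subtype.val e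
    have : (y : G)⁻¹ * x = 1 := by
      by_contra h1
      refine hn' (h.mem_of_comm (mul_mem (inv_mem y.2) x.2) h1 ?_)
      calc n * ((y : G)⁻¹ * x) = n * (y : G)⁻¹ * n⁻¹ * (n * x * n⁻¹ * (x : G)⁻¹) * x * n := by group
        _ = _ := by rw [e']; group
    exact Subtype.ext (inv_mul_eq_one.1 this).symm
  obtain ⟨y, hy⟩ := Finite.surjective_of_injective hf ⟨z, hz⟩
  exact ⟨y, y.2, congrArg Subtype.val hy⟩

theorem Star.norm_eq {ψ : C → ℂ} (hψ : IsIrrCharacter C ψ) {y : C}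
    (hy : (y : G) ∈ (P : Subgroup G)) : ‖ψ y‖ = ‖ψ 1‖ :=
  norm_eq_of_mem_center hψ (mem_center_iff.2 fun c => Subtype.ext (h.comm c.2 hy).symm)

theorem Star.mem_of_invariant {ψ : C → ℂ} (hψ : IsIrrCharacter C ψ)
    (hk : ∃ y : C, (y : G) ∈ (P : Subgroup G) ∧ ψ y ≠ ψ 1) {n : G} (hn : n ∈ N)
    (hinv : ∀ c : C, ψ ⟨n * c * n⁻¹, h.conj_mem_C hn c.2⟩ = ψ c) : n ∈ C := by
  by_contra hn'
  obtain ⟨z, hz, hne⟩ := hk
  obtain ⟨y, hy, e⟩ := h.exists_comm hn hn' hz
  set y' : C := ⟨y, h.le_C hy⟩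
  set a : C := ⟨n * y' * n⁻¹, h.conj_mem_C hn y'.2⟩
  obtain ⟨ω, -, h1⟩ := (isCharacter_norm_eq_iff hψ.isCharacter a).1
    (h.norm_eq hψ (h.conj_mem hn hy))
  obtain ⟨ω', -, h2⟩ := (isCharacter_norm_eq_iff hψ.isCharacter y').1 (h.norm_eq hψ hy)
  have h3 : ω = ω' := by
    apply mul_right_cancel₀ hψ.one_ne_zero
    rw [← h1, ← h2, mul_one, mul_one]
    exact hinv y'
  apply hne
  rw [show z = a * y'⁻¹ from Subtype.ext e.symm, h1, h3, ← h2, mul_inv_cancel]

theorem Star.exists_proj : ∃ π : C →* (P : Subgroup G), ¬ p ∣ Nat.card π.ker ∧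
    (∀ c : C, π c = 1 ↔ ¬ p ∣ orderOf (c : G)) ∧
    ∀ z : (P : Subgroup G), ∃ y : C, (y : G) ∈ (P : Subgroup G) ∧ π y = z := by
  let Q : Sylow p C := P.subtype h.le_C
  have hQ : normalizer ((Q : Subgroup C) : Set C) ≤ centralizer ((Q : Subgroup C) : Set C) :=
    fun c _ => mem_centralizer_iff.2 fun y hy => Subtype.ext (h.comm c.2 hy)
  let e : (Q : Subgroup C) ≃* (P : Subgroup G) := subgroupOfEquivOfLe h.le_C
  have hker : (e.toMonoidHom.comp (MonoidHom.transferSylow Q hQ)).ker =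
      (MonoidHom.transferSylow Q hQ).ker := by
    ext c; simp
  have h1 := MonoidHom.not_dvd_card_ker_transferSylow Q hQ
  refine ⟨e.toMonoidHom.comp (MonoidHom.transferSylow Q hQ), by rwa [hker], fun c => ⟨fun hc => ?_,
    fun hc => ?_⟩, fun z => ?_⟩
  · rw [← MonoidHom.mem_ker, hker] at hc
    rw [Subgroup.orderOf_coe]
    exact fun hd => h1 (hd.trans (Subgroup.orderOf_dvd_natCard _ hc))
  · rw [Subgroup.orderOf_coe] at hc
    obtain ⟨k, hk⟩ := IsPGroup.iff_orderOf.1 P.isPGroup'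
      (e.toMonoidHom.comp (MonoidHom.transferSylow Q hQ) c)
    rw [← orderOf_eq_one_iff]
    refine Nat.eq_one_of_dvd_coprimes (((Nat.Prime.coprime_iff_not_dvd hp.out).2 hc).pow_left k)
      hk.dvd (orderOf_map_dvd _ c)
  · have hf : Function.Bijective ((MonoidHom.transferSylow Q hQ).domRestrict (Q : Subgroup C)) :=
      (MonoidHom.transferSylow_domRestrict_eq_pow Q hQ).symm ▸
        (Q.2.powEquiv' Q.not_dvd_index).bijective
    obtain ⟨y, hy⟩ := hf.2 (e.symm z)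
    refine ⟨y, y.2, ?_⟩
    have : MonoidHom.transferSylow Q hQ y = e.symm z := hy
    simp [this]

variable [Fintype C] [Fintype N]

/-- Exceptional characters. -/
theorem Star.exceptional (φ : C → ℂ) : ∃ z : ℂ, ∀ ξ : G → ℂ, IsIrrCharacter G ξ →
    ∀ ψ ψ' : C → ℂ, IsIrrCharacter C ψ → IsIrrCharacter C ψ' →
    (∃ y : C, (y : G) ∈ (P : Subgroup G) ∧ ψ y ≠ ψ 1) →
    (∃ y : C, (y : G) ∈ (P : Subgroup G) ∧ ψ' y ≠ ψ' 1) →
    (∀ c : C, ¬ p ∣ orderOf (c : G) → ψ c = φ c) → (∀ c : C, ¬ p ∣ orderOf (c : G) → ψ' c = φ c) →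
    classInner (fun c : C => ξ c) ψ ≠ classInner (fun c : C => ξ c) ψ' →
    ξ 1 = z ∧ ∃ ξ', IsIrrCharacter G ξ' ∧ ξ' ≠ ξ ∧ ∀ g, ¬ p ∣ orderOf g → ξ' g = ξ g := by
  have := h.normal
  let up : (C → ℂ) → (N → ℂ) := fun ψ =>
    indFun (C.subgroupOf N) fun x => ψ ⟨(x : N), mem_subgroupOf.1 x.2⟩
  let ι := {χ : N → ℂ // ∃ ψ : C → ℂ, IsIrrCharacter C ψ ∧
    (∃ y : C, (y : G) ∈ (P : Subgroup G) ∧ ψ y ≠ ψ 1) ∧
    (∀ c : C, ¬ p ∣ orderOf (c : G) → ψ c = φ c) ∧ χ = up ψ}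
  by_cases hι : IsEmpty ι
  · exact ⟨0, fun ξ _ ψ _ h1 _ h2 _ h3 _ _ => hι.elim ⟨up ψ, ψ, h1, h2, h3, rfl⟩⟩
  rw [not_isEmpty_iff] at hι
  have hreg : ∀ i j : ι, ∀ x : N, ¬ ((x : G) ∈ C ∧ p ∣ orderOf (x : G)) → i.1 x = j.1 x := by
    rintro ⟨_, ψ, -, -, h3, rfl⟩ ⟨_, ψ', -, -, h3', rfl⟩ x hx
    change up ψ x = up ψ' x
    rw [← sub_eq_zero, ← Pi.sub_apply (up ψ), ← indFun_sub]
    refine indFun_eq_zero _ _ _ fun n hn => ?_
    have hx' : (x : G) ∈ C := by
      have := h.conj_mem_C (N.inv_mem n.2) (mem_subgroupOf.1 hn)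
      simpa [mul_assoc] using this
    have ho : ¬ p ∣ orderOf ((n * x * n⁻¹ : N) : G) := by
      rw [show ((n * x * n⁻¹ : N) : G) = MulAut.conj (n : G) x from rfl, MulEquiv.orderOf_eq]
      exact fun hd => hx ⟨hx', hd⟩
    rw [Pi.sub_apply, h3 _ ho, h3' _ ho, sub_self]
  obtain ⟨ε, hε, θ, hθ, hinj, he⟩ := exists_exceptional_of_TI N {a : G | a ∈ C ∧ p ∣ orderOf a}
    h.ti (fun i : ι => i.1)
    (by
      rintro ⟨_, ψ, h1, h2, -, rfl⟩
      refine isIrr_indFun_of_forall_ne _ (isIrr_subgroupOf h.C_le_N h1) fun n hn e => hn ?_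
      exact h.mem_of_invariant h1 h2 n.2 fun c => congrFun e ⟨⟨c, h.C_le_N c.2⟩, c.2⟩)
    Subtype.val_injective hreg
    (fun i j => hreg i j 1 fun hd => hp.out.one_lt.ne' (by simpa using hd.2))
  have hε0 : ε ≠ 0 := by rcases hε with rfl | rfl <;> norm_num
  have hθreg : ∀ i j : ι, ∀ g, ¬ p ∣ orderOf g → θ i g = θ j g := fun i j g hg => by
    have h1 := congrFun (he i j) g
    rw [← indFun_sub, indFun_eq_zero _ _ _ fun x hx => by
      rw [Pi.sub_apply, hreg i j _ fun hd => hg (by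
        have := hd.2
        rwa [show ((⟨x * g * x⁻¹, hx⟩ : N) : G) = MulAut.conj x g from rfl,
          MulEquiv.orderOf_eq] at this), sub_self]] at h1
    simpa [hε0, sub_eq_zero] using h1.symm
  obtain ⟨i₀⟩ := hι
  have h1' : ¬ p ∣ orderOf (1 : G) := fun hd => hp.out.one_lt.ne' (by simpa using hd)
  refine ⟨θ i₀ 1, fun ξ hξ ψ ψ' h1 h1' h2 h2' h3 h3' hne => ?_⟩
  let i : ι := ⟨up ψ, ψ, h1, h2, h3, rfl⟩
  let j : ι := ⟨up ψ', ψ', h1', h2', h3', rfl⟩
  have h4 : classInner ξ (ε • (θ i - θ j)) ≠ 0 := by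
    rw [← he i j]
    change classInner ξ (indFun N (up ψ) - indFun N (up ψ')) ≠ 0
    rw [indFun_indFun C N h.C_le_N, indFun_indFun C N h.C_le_N, classInner_sub_right,
      classInner_indFun_right C ψ hξ.isClassFunction,
      classInner_indFun_right C ψ' hξ.isClassFunction]
    exact sub_ne_zero.2 hne
  have hij : i ≠ j := fun e => h4 (by rw [e, sub_self, smul_zero, classInner_zero_right])
  by_cases e1 : ξ = θ i
  · exact ⟨by rw [e1, hθreg i i₀ 1 ‹_›], θ j, hθ j, fun e => hij (hinj (e1.symm.trans e.symm)),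
      fun g hg => by rw [e1, hθreg i j g hg]⟩
  by_cases e2 : ξ = θ j
  · exact ⟨by rw [e2, hθreg j i₀ 1 ‹_›], θ i, hθ i, fun e => hij (hinj (e.trans e2)),
      fun g hg => by rw [e2, hθreg i j g hg]⟩
  exact absurd (by rw [classInner_smul_right, classInner_sub_right, hξ.inner_eq_zero (hθ i) e1,
    hξ.inner_eq_zero (hθ j) e2, sub_self, mul_zero]) h4

/-- A character of small degree misses one of the twists of an irreducible character of `C`. -/
theorem Star.exists_twist (π : C →* (P : Subgroup G))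
    (hπ : ∀ z : (P : Subgroup G), ∃ y : C, (y : G) ∈ (P : Subgroup G) ∧ π y = z)
    {η : C → ℂ} (hη : IsCharacter C η) (hd : (η 1).re + 1 < Nat.card (P : Subgroup G))
    {φ : C → ℂ} (hφ : IsIrrCharacter C φ) : ∃ ν : (P : Subgroup G) →* ℂˣ,
      (∃ y : C, (y : G) ∈ (P : Subgroup G) ∧ φ y * (ν (π y) : ℂ) ≠ φ 1) ∧
      classInner η (fun c => φ c * (ν (π c) : ℂ)) = 0 := by
  classical
  by_contra hc
  push Not at hc
  let _ : CommGroup (P : Subgroup G) :=
    { (inferInstance : Group (P : Subgroup G)) with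
      mul_comm := fun a b => Subtype.ext (h.comm (h.le_C b.2) a.2) }
  have := Fintype.ofFinite ((P : Subgroup G) →* ℂˣ)
  have hne : ∀ y : C, (y : G) ∈ (P : Subgroup G) → φ y ≠ 0 := fun y hy e =>
    hφ.one_ne_zero (by rw [← norm_eq_zero, ← h.norm_eq hφ hy, e, norm_zero])
  have hext : ∀ ν ν' : (P : Subgroup G) →* ℂˣ, (∀ y : C, (y : G) ∈ (P : Subgroup G) →
      φ y * (ν (π y) : ℂ) = φ y * (ν' (π y) : ℂ)) → ν = ν' := fun ν ν' e => by
    ext z
    obtain ⟨y, hy, rfl⟩ := hπ z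
    exact mul_left_cancel₀ (hne y hy) (e y hy)
  let T := Finset.univ.filter fun ν : (P : Subgroup G) →* ℂˣ =>
    ∃ y : C, (y : G) ∈ (P : Subgroup G) ∧ φ y * (ν (π y) : ℂ) ≠ φ 1
  have hT : Nat.card (P : Subgroup G) ≤ T.card + 1 := by
    rw [← CommGroup.card_monoidHom_of_hasEnoughRootsOfUnity (P : Subgroup G) ℂ,
      Nat.card_eq_fintype_card, ← Finset.card_univ, ← Finset.card_filter_add_card_filter_not
        (fun ν : (P : Subgroup G) →* ℂˣ =>
          ∃ y : C, (y : G) ∈ (P : Subgroup G) ∧ φ y * (ν (π y) : ℂ) ≠ φ 1)]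
    refine Nat.add_le_add_left (Finset.card_le_one.2 fun ν hν ν' hν' => hext ν ν' fun y hy => ?_) _
    have h1 := (Finset.mem_filter.1 hν).2
    have h2 := (Finset.mem_filter.1 hν').2
    push Not at h1 h2
    rw [h1 y hy, h2 y hy]
  let f : ((P : Subgroup G) →* ℂˣ) → IrrCharacter C := fun ν =>
    ⟨fun c => φ c * (ν (π c) : ℂ), hφ.mul_linear (ν.comp π)⟩
  have hf : Function.Injective f := fun ν ν' e =>
    hext ν ν' fun y _ => congrFun (congrArg Subtype.val e) y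
  obtain ⟨c, hc1, hc2⟩ := hη.exists_coeff
  have h1 : (η 1).re = ∑ χ : IrrCharacter C, (c χ : ℝ) * ((χ : C → ℂ) 1).re := by
    conv_lhs => rw [hc2]
    simp
  have h2 : ((T.image f).card : ℝ) ≤ ∑ χ : IrrCharacter C, (c χ : ℝ) * ((χ : C → ℂ) 1).re := by
    rw [Finset.card_eq_sum_ones, Nat.cast_sum]
    refine (Finset.sum_le_sum fun χ hχ => ?_).trans (Finset.sum_le_sum_of_subset_of_nonneg
      (Finset.subset_univ _) fun χ _ _ => mul_nonneg (Nat.cast_nonneg _)
        χ.2.isCharacter.one_re_nonneg)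
    obtain ⟨ν, hν, rfl⟩ := Finset.mem_image.1 hχ
    have h3 : c (f ν) ≠ 0 := fun e => hc ν (Finset.mem_filter.1 hν).2 (by
      have := hc1 (f ν)
      rwa [e, Nat.cast_zero] at this)
    obtain ⟨n, hn, e⟩ := (f ν).2.exists_nat_one
    rw [e, Complex.natCast_re]
    exact_mod_cast Nat.one_le_iff_ne_zero.2 (Nat.mul_ne_zero h3 hn.ne')
  rw [Finset.card_image_of_injective _ hf, ← h1] at h2
  have h3 : (Nat.card (P : Subgroup G) : ℝ) ≤ T.card + 1 := by exact_mod_cast hT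
  linarith

omit h in
theorem exists_constituent {η : C → ℂ} (hη : IsCharacter C η) {y : C} (hy : η y ≠ η 1) :
    ∃ φ, IsIrrCharacter C φ ∧ classInner η φ ≠ 0 ∧ φ y ≠ φ 1 := by
  by_contra hc
  push Not at hc
  apply hy
  rw [hη.isClassFunction.apply_eq_sum_irr y, hη.isClassFunction.apply_eq_sum_irr 1]
  refine Finset.sum_congr rfl fun χ _ => ?_
  by_cases h0 : classInner η χ = 0
  · rw [h0, zero_mul, zero_mul]
  · rw [hc χ χ.2 h0]

omit h in
theorem principal_const {M : Ideal AlgInt} (hM : IsPModular p M) {x : G}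
    (hx : ∃ k, orderOf x = p ^ k) (e : centralizer ({x} : Set G) = C) {χ : IrrCharacter G}
    (hχ : χ ∈ principalBlock M G) (V : Subgroup C) [V.Normal] (hV : ¬ p ∣ Nat.card V)
    {y : C} (hy : ¬ p ∣ orderOf y) {v : C} (hv : v ∈ V) :
    (χ : G → ℂ) (x * (y * v)) = (χ : G → ℂ) (x * y) := by
  subst e
  exact apply_mul_eq_of_mem_principal hM hx hχ V hV hy hv

theorem Star.small {ξ : G → ℂ} (hξ : IsIrrCharacter G ξ)
    (hk : ∃ y ∈ (P : Subgroup G), ξ y ≠ ξ 1) (hd : (ξ 1).re + 1 < Nat.card (P : Subgroup G))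
    (π : C →* (P : Subgroup G)) (hπ1 : ∀ c : C, π c = 1 ↔ ¬ p ∣ orderOf (c : G))
    (hπ : ∀ z : (P : Subgroup G), ∃ y : C, (y : G) ∈ (P : Subgroup G) ∧ π y = z) :
    ∃ (φ : C → ℂ) (ν : (P : Subgroup G) →* ℂˣ), IsIrrCharacter C φ ∧
      IsIrrCharacter C (fun c => φ c * (ν (π c) : ℂ)) ∧
      (∃ y : C, (y : G) ∈ (P : Subgroup G) ∧ φ y ≠ φ 1) ∧
      (∃ y : C, (y : G) ∈ (P : Subgroup G) ∧ φ y * (ν (π y) : ℂ) ≠ φ 1 * (ν (π 1) : ℂ)) ∧
      (∀ c : C, ¬ p ∣ orderOf (c : G) → φ c * (ν (π c) : ℂ) = φ c) ∧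
      classInner (fun c : C => ξ c) φ ≠
        classInner (fun c : C => ξ c) fun c => φ c * (ν (π c) : ℂ) := by
  obtain ⟨y, hy, hne⟩ := hk
  have hη := hξ.isCharacter.restrict C
  obtain ⟨φ, hφ, h1, h2⟩ := exists_constituent hη (y := ⟨y, h.le_C hy⟩) hne
  obtain ⟨ν, h3, h4⟩ := h.exists_twist π hπ hη hd hφ
  exact ⟨φ, ν, hφ, hφ.mul_linear (ν.comp π), ⟨_, hy, h2⟩, by simpa using h3,
    fun c hc => by simp [(hπ1 c).2 hc], by rwa [h4]⟩

theorem Star.principal_degree {M : Ideal AlgInt} (hM : IsPModular p M) :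
    ∃ z : ℂ, ∀ ξ ∈ principalBlock M G, (∃ y ∈ (P : Subgroup G), (ξ : G → ℂ) y ≠ (ξ : G → ℂ) 1) →
      ((ξ : G → ℂ) 1).re + 1 < Nat.card (P : Subgroup G) → (ξ : G → ℂ) 1 = z := by
  obtain ⟨z, hz⟩ := h.exceptional fun _ => 1
  obtain ⟨π, hV, hπ1, hπ⟩ := h.exists_proj
  refine ⟨z, fun ξ hξ hk hd => ?_⟩
  obtain ⟨φ, ν, h1, h2, h3, h4, h5, h6⟩ := h.small ξ.2 hk hd π hπ1 hπ
  have hker : ∀ v ∈ π.ker, φ v = φ 1 := by
    by_contra hc
    push Not at hc
    apply h6
    have := Fintype.ofFinite π.ker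
    let F : C → ℂ := fun c => (ξ : G → ℂ) c * conj (1 - (ν (π c) : ℂ))
    have hF : ∀ c : C, ∀ v ∈ π.ker, F (c * v) = F c := fun c v hv => by
      simp only [F, map_mul, MonoidHom.mem_ker.1 hv, mul_one]
      by_cases h0 : π c = 1
      · simp [h0]
      congr 1
      have hx := pPart_ne_one_iff.2 (not_not.1 (mt (hπ1 c).2 h0))
      have := principal_const hM (orderOf_pPart p (c : G)) (h.star _ (h.pPart_mem_P c.2) hx) hξ
        π.ker hV (y := pReg p c) (not_dvd_orderOf_pReg p c) hv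
      rwa [← mul_assoc, ← pReg_coe, pPart_mul_pReg] at this
    have h7 : (Fintype.card π.ker : ℂ) * ∑ c : C, F c * conj (φ c) = 0 := by
      have h8 : ∀ v : π.ker, ∑ c : C, F c * conj (φ c) = ∑ c : C, F c * conj (φ (c * v)) :=
        fun v => by
          rw [← Equiv.sum_comp (Equiv.mulRight (v : C))]
          exact Finset.sum_congr rfl fun c _ => by rw [Equiv.coe_mulRight, hF c v v.2]
      rw [← nsmul_eq_mul, ← Finset.card_univ, ← Finset.sum_const,
        Finset.sum_congr rfl fun v _ => h8 v, Finset.sum_comm]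
      refine Finset.sum_eq_zero fun c _ => ?_
      rw [← Finset.mul_sum, ← map_sum, sum_coset_eq_zero h1 π.ker hc, map_zero, mul_zero]
    rw [mul_eq_zero, Nat.cast_eq_zero, or_iff_right Fintype.card_ne_zero] at h7
    rw [← sub_eq_zero, ← classInner_sub_right, classInner, mul_eq_zero]
    right
    rw [← h7]
    refine Finset.sum_congr rfl fun c _ => ?_
    simp only [F, Pi.sub_apply, map_sub, map_mul, map_one]
    ring
  have hone : φ 1 = 1 := by
    refine one_eq_one_of_commutator_le h1 ?_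
    rw [commutator_def, commutator_le]
    intro a _ b _
    refine (mem_charKer_iff h1.isCharacter).2 (hker _ ?_)
    rw [MonoidHom.mem_ker, map_commutatorElement, commutatorElement_eq_one_iff_mul_comm]
    exact Subtype.ext (h.comm (h.le_C (π b).2) (π a).2)
  have hreg : ∀ c : C, ¬ p ∣ orderOf (c : G) → φ c = 1 := fun c hc => by
    rw [hker c ((hπ1 c).2 hc), hone]
  exact (hz ξ ξ.2 φ _ h1 h2 h3 h4 hreg (fun c hc => by rw [h5 c hc, hreg c hc]) h6).1

theorem Star.exists_linear {χ : G → ℂ} (hχ : IsIrrCharacter G χ)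
    (hfull : ∀ ξ : G → ℂ, IsIrrCharacter G ξ → ξ ≠ (fun _ => 1) →
      ∃ y ∈ (P : Subgroup G), ξ y ≠ ξ 1)
    (h1 : χ ≠ fun _ => 1) (hd : (χ 1).re ^ 2 + 1 < Nat.card (P : Subgroup G)) :
    ∃ ξ : G → ℂ, IsIrrCharacter G ξ ∧ ξ ≠ (fun _ => 1) ∧ ξ 1 = 1 := by
  classical
  obtain ⟨M, hM⟩ := exists_isPModular hp.out
  obtain ⟨z, hz⟩ := h.principal_degree hM
  obtain ⟨π, -, hπ1, hπ⟩ := h.exists_proj
  obtain ⟨n, hn0, hn⟩ := hχ.exists_nat_one
  have hn1 : (1 : ℝ) ≤ n := by exact_mod_cast hn0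
  rw [hn, Complex.natCast_re] at hd
  obtain ⟨φ, ν, a1, a2, a3, a4, a5, a6⟩ := h.small hχ (hfull χ hχ h1)
    (by rw [hn, Complex.natCast_re]; nlinarith) π hπ1 hπ
  obtain ⟨_, hz'⟩ := h.exceptional φ
  obtain ⟨-, χ', hχ', hne, hreg⟩ := hz' χ hχ φ _ a1 a2 a3 a4 (fun _ _ => rfl) a5 a6
  have hA : IsCharacter G (χ * conjFun χ) := hχ.isCharacter.mul hχ.conj.isCharacter
  have hB : IsCharacter G (χ' * conjFun χ) := hχ'.isCharacter.mul hχ.conj.isCharacter
  have h0 := blockPart_eq_zero_of_val hM (val_blockCoeff_principal_le_one hM)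
    (ϑ := χ * conjFun χ - χ' * conjFun χ) (u := 1) fun x hx => by
      rw [pPart_one, isConj_one_right, pPart_eq_one_iff] at hx
      rw [Pi.sub_apply, Pi.mul_apply, Pi.mul_apply, hreg x hx, sub_self]
  obtain ⟨c, hc, -⟩ := (hA.isGen.sub hB.isGen).exists_coeff
  rw [blockPart_apply, finsum_mem_irr_eq_sum, ← Finset.add_sum_erase _ _
    (a := irrOne G) (Finset.mem_filter.2 ⟨Finset.mem_univ _, irrOne_mem_principal hM⟩)] at h0
  have h2 : classInner (χ * conjFun χ - χ' * conjFun χ) (irrOne G : G → ℂ) = 1 := by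
    have e : ∀ a : G → ℂ, classInner (a * conjFun χ) (irrOne G : G → ℂ) = classInner a χ :=
      fun a => by simp [classInner, irrOne, conjFun]
    rw [classInner_sub_left, e, e, hχ.inner_self, hχ'.inner_eq_zero hχ hne, sub_zero]
  have h1' : χ' 1 = n := by
    rw [hreg 1 fun hd => hp.out.one_lt.ne' (by simpa using hd), hn]
  have h3 : ∀ ξ ∈ (Finset.univ.filter (· ∈ principalBlock M G)).erase (irrOne G), c ξ ≠ 0 →
      (ξ : G → ℂ) ≠ (fun _ => 1) ∧ (ξ : G → ℂ) 1 = z := fun ξ hξ h4 => by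
    obtain ⟨h5, h6⟩ := Finset.mem_erase.1 hξ
    have h7 : (ξ : G → ℂ) ≠ fun _ => 1 := fun e => h5 (Subtype.ext e)
    refine ⟨h7, hz ξ (Finset.mem_filter.1 h6).2 (hfull _ ξ.2 h7) (lt_of_le_of_lt ?_ hd)⟩
    have h8 : ((χ * conjFun χ) 1).re = (n : ℝ) ^ 2 := by simp [conjFun, hn, sq]
    have h9 : ((χ' * conjFun χ) 1).re = (n : ℝ) ^ 2 := by simp [conjFun, hn, h1', sq]
    by_cases h10 : classInner (χ * conjFun χ) ξ = 0
    · have h11 : classInner (χ' * conjFun χ) ξ ≠ 0 := fun e => h4 (by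
        have := hc ξ
        rw [classInner_sub_left, h10, e, sub_zero] at this
        exact_mod_cast this.symm)
      linarith [hB.one_le_of_inner_ne_zero ξ.2 h11]
    · linarith [hA.one_le_of_inner_ne_zero ξ.2 h10]
  rw [h2, Finset.sum_congr rfl (g := fun ξ => (c ξ : ℂ) * z) fun ξ hξ => by
    rw [hc ξ]
    by_cases h4 : c ξ = 0
    · simp [h4]
    · rw [(h3 ξ hξ h4).2], ← Finset.sum_mul] at h0
  obtain ⟨ξ, hξ, h4⟩ : ∃ ξ ∈ (Finset.univ.filter (· ∈ principalBlock M G)).erase (irrOne G),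
      c ξ ≠ 0 := by
    by_contra hc'
    push Not at hc'
    rw [Finset.sum_eq_zero fun ξ hξ => by rw [hc' ξ hξ, Int.cast_zero]] at h0
    simp [irrOne] at h0
  obtain ⟨h5, h6⟩ := h3 ξ hξ h4
  refine ⟨ξ, ξ.2, h5, ?_⟩
  obtain ⟨m, -, hm⟩ := ξ.2.exists_nat_one
  rw [← h6, hm, ← Int.cast_sum] at h0
  have h7 : (1 : ℤ) + (∑ ξ ∈ (Finset.univ.filter (· ∈ principalBlock M G)).erase (irrOne G), c ξ) *
      m = 0 := by
    simp only [irrOne, mul_one] at h0
    exact_mod_cast h0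
  have h8 : (m : ℤ) ∣ 1 := Dvd.intro_left _ (by linear_combination -h7 :
    -(∑ ξ ∈ (Finset.univ.filter (· ∈ principalBlock M G)).erase (irrOne G), c ξ) * (m : ℤ) = 1)
  rw [hm, (Nat.dvd_one.1 (by exact_mod_cast h8) : m = 1), Nat.cast_one]

theorem Star.N_le_C {ξ : G → ℂ} (hξ : IsIrrCharacter G ξ) (h1 : ξ 1 = 1)
    (hk : ∃ y ∈ (P : Subgroup G), ξ y ≠ ξ 1) : N ≤ C := fun n hn => by
  obtain ⟨y, hy, hne⟩ := hk
  exact h.mem_of_invariant ((hξ.isCharacter.restrict C).isIrr_of_one h1) ⟨⟨y, h.le_C hy⟩, hy, hne⟩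
    hn fun c => hξ.isClassFunction c n

theorem Star.restrict_irr (hNC : N ≤ C) {χ : G → ℂ} (hχ : IsIrrCharacter G χ)
    (hd : (χ 1).re ^ 2 < Nat.card (P : Subgroup G)) : IsIrrCharacter C fun c : C => χ c := by
  classical
  obtain ⟨π, -, hπ1, hπ⟩ := h.exists_proj
  have hη := hχ.isCharacter.restrict C
  set η : C → ℂ := fun c => χ c with hη'
  let β : C → ℂ := fun c => if π c = 1 then 0 else η c
  let γ : C → ℂ := fun c => if π c = 1 then η c else 0
  have e : η = β + γ := by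
    funext c; simp only [β, γ, Pi.add_apply]; split_ifs <;> simp
  have hβγ : ip β γ = 0 := ip_eq_zero_of_classInner (by
    rw [classInner, Finset.sum_eq_zero fun c _ => ?_, mul_zero]
    simp only [β, γ]; split_ifs <;> simp)
  have hβ : IsClassFunction C β := fun a b => by
    have : π (b * a * b⁻¹) = 1 ↔ π a = 1 := by
      simp only [map_mul, map_inv, mul_inv_eq_one, mul_eq_left]
    simp only [β, this, hη.isClassFunction a b]
  have hβA : ∀ x : C, (x : G) ∉ {a : G | a ∈ C ∧ p ∣ orderOf a} → β x = 0 := fun x hx =>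
    if_pos ((hπ1 x).2 fun hd => hx ⟨x.2, hd⟩)
  have h1 : ip (indFun C β) (indFun C β) = ip β β := ip_congr
    (classInner_indFun_indFun_of_TI C _ (fun g hg => h.ti g fun hN => hg (hNC hN)) hβ hβA hβA
      (if_pos (map_one π)))
  have h2 : ip (indFun C β) χ = ip β β := by
    rw [ip_congr (classInner_indFun_left C β hχ.isClassFunction), ← hη', e, ip_add_right, hβγ,
      add_zero]
  have h3 : ip β β ≤ 1 := by
    have h4 := ip_self_nonneg (indFun C β - ip β β • χ)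
    simp only [ip_sub_left, ip_sub_right, ip_smul_left, ip_smul_right, ip_irr_self hχ,
      ip_comm χ (indFun C β), h1, h2] at h4
    nlinarith [ip_self_nonneg β]
  have h4 : ip γ γ < 1 := by
    have h5 : Nat.card C = Nat.card π.ker * Nat.card (P : Subgroup G) := by
      rw [← π.ker.card_mul_index, index_ker, MonoidHom.range_eq_top.2 fun z => by
        obtain ⟨y, -, hy⟩ := hπ z
        exact ⟨y, hy⟩, card_top]
    have h6 : ∑ c : C, (γ c * conj (γ c)).re ≤ Nat.card π.ker * (χ 1).re ^ 2 := by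
      rw [Nat.card_eq_fintype_card, Fintype.card_subtype, ← nsmul_eq_mul, ← Finset.sum_const,
        Finset.sum_filter]
      refine Finset.sum_le_sum fun c _ => ?_
      simp only [γ, MonoidHom.mem_ker]
      split_ifs
      · rw [Complex.mul_conj', ← Complex.ofReal_pow, Complex.ofReal_re]
        exact pow_le_pow_left₀ (norm_nonneg _) (hχ.isCharacter.norm_le c) 2
      · simp
    have h7 : (0 : ℝ) < Nat.card π.ker := by exact_mod_cast Nat.card_pos
    have h8 : (0 : ℝ) < Nat.card C := by exact_mod_cast Nat.card_pos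
    rw [ip_def, classInner, ← Complex.ofReal_natCast, ← Complex.ofReal_inv, Complex.re_ofReal_mul,
      Complex.re_sum, inv_mul_lt_iff₀ h8, mul_one, h5, Nat.cast_mul]
    exact h6.trans_lt (mul_lt_mul_of_pos_left hd h7)
  have h5 : ip η η < 2 := by
    rw [e, ip_add_left, ip_add_right, ip_add_right, ip_comm γ β, hβγ]
    linarith
  have h6 := one_le_ip_self hη.isGen fun e0 => hχ.one_ne_zero (congrFun e0 1)
  obtain ⟨k, hk⟩ := exists_int_ip hη.isGen hη.isGen
  rw [hk] at h5 h6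
  have h7 : k = 1 := by
    have : k < 2 := by exact_mod_cast h5
    have : 1 ≤ k := by exact_mod_cast h6
    omega
  refine hη.isIrr_of_inner_self ?_
  rw [classInner_self_eq_ip, hk, h7]; simp

omit [Fintype C] [Fintype N] in
/-- The theorem of Brauer and Leonard. -/
theorem Star.main (hfull : ∀ K : Subgroup G, K.Normal → (P : Subgroup G) ≤ K → K = ⊤)
    {χ : G → ℂ} (hχ : IsIrrCharacter G χ) (h1 : χ ≠ fun _ => 1)
    (hd : (χ 1).re ^ 2 + 1 < Nat.card (P : Subgroup G)) : N ≤ C ∧ χ 1 = 1 := by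
  have := Fintype.ofFinite C
  have := Fintype.ofFinite N
  have hfull' : ∀ ξ : G → ℂ, IsIrrCharacter G ξ → ξ ≠ (fun _ => 1) →
      ∃ y ∈ (P : Subgroup G), ξ y ≠ ξ 1 := fun ξ hξ hne => by
    by_contra hc
    push Not at hc
    exact hne (eq_one_of_charKer_eq_top hξ (hfull _ (charKer_normal hξ.isClassFunction)
      fun y hy => (mem_charKer_iff hξ.isCharacter).2 (hc y hy)))
  obtain ⟨ξ, hξ, h2, h3⟩ := h.exists_linear hχ hfull' h1 hd
  have hNC := h.N_le_C hξ h3 (hfull' ξ hξ h2)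
  refine ⟨hNC, one_eq_one_of_commutator_le hχ ?_⟩
  have h4 := h.restrict_irr hNC hχ (by linarith)
  have := charKer_normal hχ.isClassFunction
  have key : ∀ a b : G, a * b * a⁻¹ * b⁻¹ ∈ charKer χ ↔
      QuotientGroup.mk' (charKer χ) b * QuotientGroup.mk' (charKer χ) a =
        QuotientGroup.mk' (charKer χ) a * QuotientGroup.mk' (charKer χ) b := fun a b => by
    rw [← QuotientGroup.eq_one_iff, ← QuotientGroup.mk'_apply]
    simp only [map_mul, map_inv]
    rw [mul_inv_eq_one, mul_inv_eq_iff_eq_mul, eq_comm]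
  have h5 := hfull ((center (G ⧸ charKer χ)).comap (QuotientGroup.mk' (charKer χ))) inferInstance
    fun y hy => mem_center_iff.2 fun q => by
      obtain ⟨g, rfl⟩ := QuotientGroup.mk'_surjective _ q
      exact (key y g).1 (commutator_mem_charKer_of_norm_eq hχ.isCharacter
        (h.norm_eq h4 (y := ⟨y, h.le_C hy⟩) hy) g)
  rw [commutator_def, commutator_le]
  intro a _ b _
  have h6 : a ∈ (center (G ⧸ charKer χ)).comap (QuotientGroup.mk' (charKer χ)) := by
    rw [h5]; trivial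
  exact (key a b).2 (mem_center_iff.1 h6 _)

end Cfsg.Agent.Char.BL
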