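import Mathlib
import Cfsg.Agent.FGS.ActTools

/-! The average dimension of fixed point spaces of a solvable group on a nontrivial irreducible
module is at most half the dimension. -/

set_option autoImplicit false
set_option linter.unusedSectionVars false

open Subgroup

namespace Cfsg.Agent.Char.AvgFix

universe u

/-- the fixed points of an automorphism. -/
abbrev fx {V : Type*} [Group V] (σ : MulAut V) : Subgroup V := σ.toMonoidHom.eqLocus (.id V)

theorem mem_fx {V : Type*} [Group V] {σ : MulAut V} {v : V} : v ∈ fx σ ↔ σ v = v := Iff.rfl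

theorem card_dvd_mul {A B : Type*} [Group A] [Group B] [Finite A] (f : A →* B) {H K : Subgroup A}
    {J : Subgroup B} (h1 : ∀ x ∈ H, f x ∈ J) (h2 : ∀ x ∈ H, f x = 1 → x ∈ K) :
    Nat.card H ∣ Nat.card (H ⊓ K : Subgroup A) * Nat.card J := by
  rw [← relIndex_mul_relIndex ⊥ (H ⊓ K) H bot_le inf_le_left |>.trans (relIndex_bot_left H) ,
    relIndex_bot_left]
  refine Nat.mul_dvd_mul_left _ ((relIndex_dvd_of_le_left H (le_inf inf_le_left
    fun x hx => h2 x hx.1 hx.2 : H ⊓ f.ker ≤ H ⊓ K)).trans ?_)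
  rw [inf_relIndex_left, relIndex_ker]
  exact card_dvd_of_le (map_le_iff_le_comap.2 h1)

theorem mul_dvd_of_inf {V : Type*} [CommGroup V] [Finite V] {A B : Subgroup V} (h : A ⊓ B = ⊥) :
    Nat.card A * Nat.card B ∣ Nat.card V := by
  rw [← Nat.card_prod]
  exact card_dvd_of_injective (A.subtype.coprod B.subtype) ((injective_iff_map_eq_one _).2
    fun ⟨a, b⟩ e => by
      have e1 : (a : V) = (b : V)⁻¹ := eq_inv_of_mul_eq_one_left e
      have e2 : (a : V) = 1 := mem_bot.1 (h ▸ mem_inf.2 ⟨a.2, e1 ▸ inv_mem b.2⟩)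
      exact Prod.ext (Subtype.ext e2) (Subtype.ext (inv_eq_one.1 (e1 ▸ e2))))

variable {X : Type*} [Group X] [Finite X] {N : Subgroup X} [hN : N.Normal] [Fintype N]

/-- the fixed points of a subgroup. -/
def fxS {V : Type*} [Group V] (c : X →* MulAut V) (A : Subgroup X) : Subgroup V :=
  ⨅ a ∈ A, fx (c a)

omit [Finite X] in
theorem mem_fxS {V : Type*} [Group V] {c : X →* MulAut V} {A : Subgroup X} {v : V} :
    v ∈ fxS c A ↔ ∀ a ∈ A, c a v = v := by simp [fxS, mem_iInf, mem_fx]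

omit [Finite X] in
theorem le_stab {V : Type*} [Group V] (c : X →* MulAut V) (v : V) :
    ∃ S : Subgroup X, ∀ x, x ∈ S ↔ c x v = v :=
  ⟨(MulAction.stabilizer (MulAut V) v).comap c, fun _ => Iff.rfl⟩

theorem irred_case {V : Type*} [CommGroup V] [Finite V] [Nontrivial V] (c : X →* MulAut V)
    (hc : ∀ a ∈ N, ∀ b ∈ N, a * b = b * a) (hcop : (Nat.card N).Coprime (Nat.card V))
    (h0 : fxS c N = ⊥) {g : X} (hg : N ⊔ zpowers g = ⊤)
    (hirr : ∀ W : Subgroup V, (∀ x, ∀ w ∈ W, c x w ∈ W) → W = ⊥ ∨ W = ⊤) :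
    ∏ n : N, Nat.card (fx (c (g * n))) ^ 2 ∣ Nat.card V ^ Nat.card N := by
  classical
  obtain ⟨A, ⟨hAN, hA⟩, hmax⟩ := Finite.exists_le_maximal (a := ⊥)
    (p := fun A : Subgroup X => A ≤ N ∧ fxS c A ≠ ⊥)
    ⟨bot_le, ne_of_eq_of_ne (eq_top_iff.2 fun v _ => mem_fxS.2 (by simp)) top_ne_bot⟩ |>.imp
      fun _ h => h.2
  have hm : ∀ B ≤ N, ∀ v ∈ fxS c A, v ∈ fxS c B → v ≠ 1 → B ≤ A := fun B hB v h1 h2 h3 => by
    obtain ⟨S, hS⟩ := le_stab c v
    refine le_sup_right.trans (hmax ⟨sup_le hAN hB, fun e => h3 (mem_bot.1 (e ▸ mem_fxS.2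
      fun a ha => (hS a).1 ((sup_le (fun a ha => (hS a).2 (mem_fxS.1 h1 a ha))
        (fun a ha => (hS a).2 (mem_fxS.1 h2 a ha)) : A ⊔ B ≤ S) ha)))⟩ le_sup_left)
  rw [Nat.card_eq_fintype_card (α := N), ← Finset.card_univ, ← Finset.prod_const]
  by_cases hU : fxS c A = ⊤
  · obtain ⟨m, hm1, hm2⟩ := SetLike.exists_of_lt (lt_of_le_of_ne hAN fun e => hA (e ▸ h0))
    simp only [sq, Finset.prod_mul_distrib]
    nth_rw 2 [← Equiv.prod_comp (Equiv.mulRight (⟨m, hm1⟩ : N))]
    rw [← Finset.prod_mul_distrib]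
    refine Finset.prod_dvd_prod_of_dvd _ _ fun n _ => mul_dvd_of_inf (eq_bot_iff.2 fun v hv => ?_)
    by_contra h1
    obtain ⟨S, hS⟩ := le_stab c v
    refine hm2 (hm _ (zpowers_le.2 hm1) v (hU ▸ mem_top v) (mem_fxS.2 fun a ha => (hS a).1
      (zpowers_le.2 ?_ ha)) h1 (mem_zpowers m))
    simpa [mul_assoc] using mul_mem (inv_mem ((hS _).2 hv.1)) ((hS _).2 hv.2)
  refine Finset.prod_dvd_prod_of_dvd _ _ fun n _ => ?_
  have := Fintype.ofFinite A
  let T : V →* V := ∏ a : A, (c a).toMonoidHom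
  have hT : ∀ v, T v = ∏ a : A, c a v := fun v => by simp [T]
  have hTN : ∀ m ∈ N, ∀ v, T (c m v) = c m (T v) := fun m hm v => by
    rw [hT, hT, map_prod]
    refine Finset.prod_congr rfl fun a _ => ?_
    rw [← MulAut.mul_apply, ← MulAut.mul_apply, ← map_mul, ← map_mul, hc _ hm _ (hAN a.2)]
  have hK : (⨅ x, T.ker.comap (c x).toMonoidHom) = ⊥ := (hirr _ fun x w hw => by
    simp only [mem_iInf, mem_comap] at hw ⊢
    intro y
    simpa using hw (y * x)).resolve_right fun e => by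
      obtain ⟨⟨u, hu⟩, hu1⟩ := ne_bot_iff_exists_ne_one.1 hA
      have h1 : T u = 1 := by simpa using mem_comap.1 (mem_iInf.1 (e.ge (mem_top u)) 1)
      rw [hT, Finset.prod_congr rfl fun (a : A) _ => mem_fxS.1 hu a a.2, Finset.prod_const,
        Finset.card_univ, ← Nat.card_eq_fintype_card] at h1
      exact hu1 (Subtype.ext (orderOf_eq_one_iff.1 (Nat.eq_one_of_dvd_coprimes hcop
        ((orderOf_dvd_of_pow_eq_one h1).trans (card_dvd_of_le hAN)) (orderOf_dvd_natCard u))))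
  have hg' : N ⊔ zpowers (g * n) = ⊤ := eq_top_iff.2 (hg.ge.trans (sup_le le_sup_left
    (zpowers_le.2 (by
      simpa using mul_mem (mem_sup_right (mem_zpowers (g * n))) (mem_sup_left (inv_mem n.2))))))
  have h1 : Nat.card (fx (c (g * n))) ∣ Nat.card (fxS c A) := by
    have := card_dvd_mul T (H := fx (c (g * n))) (K := ⊥) (J := fxS c A)
      (fun v _ => mem_fxS.2 fun b hb => by
        rw [hT, map_prod, ← Equiv.prod_comp (Equiv.mulLeft (⟨b, hb⟩ : A)) fun a : A => c a v]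
        simp)
      fun v hv h2 => hK ▸ mem_iInf.2 fun x => by
        obtain ⟨m, hm, y, hy, rfl⟩ := mem_sup_of_normal_left.1 (hg' ▸ mem_top x)
        obtain ⟨S, hS⟩ := le_stab c v
        have h3 := (hS y).1 (zpowers_le.2 ((hS _).2 hv) hy)
        simp [h3, hTN m hm, h2]
    simpa using this
  have h2 : fxS c A ⊓ (fxS c A).map (c g).toMonoidHom = ⊥ := by
    by_contra h2
    obtain ⟨⟨v, hv, u, hu, rfl⟩, hv1⟩ := ne_bot_iff_exists_ne_one.1 h2
    have h3 := hm (A.map (MulAut.conj g).toMonoidHom) (by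
      rintro _ ⟨a, ha, rfl⟩; exact hN.conj_mem _ (hAN ha) g) _ hv (mem_fxS.2 (by
        rintro _ ⟨a, ha, rfl⟩
        simp [mem_fxS.1 hu a ha])) fun e => hv1 (Subtype.ext e)
    have h4 : g ∈ normalizer (A : Set X) := mem_normalizer_fintype fun a ha => h3 ⟨a, ha, rfl⟩
    have h5 : ⊤ ≤ normalizer (A : Set X) := hg ▸ sup_le (fun m hm => mem_normalizer_fintype
      fun a ha => by rwa [hc _ hm _ (hAN ha), mul_inv_cancel_right]) (zpowers_le.2 h4)
    refine (hirr _ fun x w hw => mem_fxS.2 fun a ha => ?_).elim hA hU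
    have := mem_fxS.1 hw _ ((mem_normalizer_iff''.1 (h5 (mem_top x)) a).1 ha)
    simpa [MulEquiv.symm_apply_eq] using this
  refine (pow_dvd_pow_of_dvd h1 2).trans ?_
  have := mul_dvd_of_inf h2
  rwa [card_map_of_injective (c g).injective, ← sq] at this

theorem coset_top (hc : ∀ a ∈ N, ∀ b ∈ N, a * b = b * a) {g : X} (hg : N ⊔ zpowers g = ⊤) (k : ℕ) :
    ∀ (V : Type u) [CommGroup V] [Finite V] (c : X →* MulAut V), Nat.card V = k →
      (Nat.card N).Coprime (Nat.card V) → (∀ v, ∏ n : N, c n v = 1) →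
      ∏ n : N, Nat.card (fx (c (g * n))) ^ 2 ∣ Nat.card V ^ Nat.card N := by
  induction k using Nat.strong_induction_on with
  | _ k ih =>
  intro V _ _ c hk hcop hz
  cases subsingleton_or_nontrivial V
  · simp [Nat.card_unique]
  by_cases hirr : ∀ W : Subgroup V, (∀ x, ∀ w ∈ W, c x w ∈ W) → W = ⊥ ∨ W = ⊤
  · refine irred_case c hc hcop (eq_bot_iff.2 fun v hv => ?_) hg hirr
    have h1 := hz v
    rw [Finset.prod_congr rfl fun (a : N) _ => mem_fxS.1 hv a a.2, Finset.prod_const,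
      Finset.card_univ, ← Nat.card_eq_fintype_card] at h1
    exact orderOf_eq_one_iff.1 (Nat.eq_one_of_dvd_coprimes hcop
      (orderOf_dvd_of_pow_eq_one h1) (orderOf_dvd_natCard v))
  push Not at hirr
  obtain ⟨W, hW, h1, h2⟩ := hirr
  have e := W.card_eq_card_quotient_mul_card_subgroup
  have h3 : 1 < Nat.card W := one_lt_card_iff_ne_bot _ |>.2 h1
  have h4 : 1 < Nat.card (V ⧸ W) := one_lt_index_of_ne_top h2
  have i1 := ih _ (by rw [← hk, e]; nlinarith) W (FGS.restrictAct c W hW) rfl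
    (hcop.coprime_dvd_right (card_subgroup_dvd_card W)) fun v => Subtype.ext (by simpa using hz v)
  have i2 := ih _ (by rw [← hk, e]; nlinarith) (V ⧸ W) (FGS.quotAct c W hW) rfl
    (hcop.coprime_dvd_right (card_quotient_dvd_card W)) fun v => by
      induction v using QuotientGroup.induction_on with
      | H v => simpa using congrArg (QuotientGroup.mk' W) (hz v)
  rw [e, mul_pow, mul_comm]
  refine dvd_trans ?_ (mul_dvd_mul i1 i2)
  rw [← Finset.prod_mul_distrib]
  refine Finset.prod_dvd_prod_of_dvd _ _ fun n _ => ?_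
  rw [← mul_pow]
  refine pow_dvd_pow_of_dvd ((card_dvd_mul (QuotientGroup.mk' W) (K := W)
    (J := fx (FGS.quotAct c W hW (g * n))) (fun v hv => congrArg (QuotientGroup.mk' W) hv)
    fun v _ => (QuotientGroup.eq_one_iff v).1).trans (Nat.mul_dvd_mul_right ?_ _)) 2
  rw [← card_map_of_injective W.subtype_injective]
  exact card_dvd_of_le fun v hv => ⟨⟨v, hv.2⟩, Subtype.ext hv.1, rfl⟩

theorem coset {V : Type*} [CommGroup V] [Finite V] (c : X →* MulAut V)
    (hc : ∀ a ∈ N, ∀ b ∈ N, a * b = b * a) (hcop : (Nat.card N).Coprime (Nat.card V))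
    (h0 : fxS c N = ⊥) (g : X) :
    ∏ n : N, Nat.card (fx (c (g * n))) ^ 2 ∣ Nat.card V ^ Nat.card N := by
  have := Fintype.ofFinite (N.subgroupOf (N ⊔ zpowers g))
  let e := (subgroupOfEquivOfLe (le_sup_left : N ≤ N ⊔ zpowers g)).toEquiv
  have := coset_top (N := N.subgroupOf (N ⊔ zpowers g))
    (fun a ha b hb => Subtype.ext (hc _ ha _ hb)) (g := ⟨g, mem_sup_right (mem_zpowers g)⟩)
    (map_injective (subtype_injective _) (by
      rw [Subgroup.map_sup, map_subgroupOf_eq_of_le le_sup_left, MonoidHom.map_zpowers,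
        ← MonoidHom.range_eq_map, range_subtype]; rfl)) _ V
    (c.comp (Subgroup.subtype _)) rfl (by rwa [Nat.card_congr e]) fun v => by
      refine (Fintype.prod_equiv e _ (fun n : N => c n v) fun _ => rfl).trans
        (mem_bot.1 (h0 ▸ mem_fxS.2 fun b hb => ?_))
      rw [map_prod, ← Equiv.prod_comp (Equiv.mulLeft (⟨b, hb⟩ : N)) fun a : N => c a v]
      simp
  rw [Nat.card_congr e] at this
  exact (Fintype.prod_equiv e _ _ fun _ => rfl).symm.dvd.trans this

omit [Finite X] in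
/-- a normal `p`-subgroup of the image acts trivially on an irreducible `p`-module. -/
theorem eq_one_of_pgroup {V : Type*} [Group V] [Finite V] {p : ℕ} [Fact p.Prime]
    (hV : IsPGroup p V) (c : X →* MulAut V)
    (hirr : ∀ W : Subgroup V, (∀ x, ∀ w ∈ W, c x w ∈ W) → W = ⊥ ∨ W = ⊤) (M : Subgroup X)
    [hM : M.Normal] (h : IsPGroup p (M.map c)) {x : X} (hx : x ∈ M) : c x = 1 := by
  cases subsingleton_or_nontrivial V
  · exact MulEquiv.ext fun _ => Subsingleton.elim _ _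
  have h1 := (hirr (fxS c M) fun y w hw => mem_fxS.2 fun a ha => by
    have := mem_fxS.1 hw _ (hM.conj_mem' a ha y)
    simpa [MulEquiv.symm_apply_eq] using this).resolve_left fun e => by
      obtain ⟨n, hn, hn'⟩ := hV.nontrivial_iff_card.1 inferInstance
      obtain ⟨v, hv, h1⟩ := h.exists_fixed_point_of_prime_dvd_card_of_fixed_point V
        (hn' ▸ dvd_pow_self p hn.ne') (a := 1) fun g => smul_one g
      exact h1 (mem_bot.1 (e ▸ mem_fxS.2 fun a ha => hv ⟨_, a, ha, rfl⟩)).symm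
  exact MulEquiv.ext fun v => mem_fxS.1 (h1 ▸ mem_top v) x hx

/-- the average dimension of the fixed point spaces is at most half the dimension. -/
theorem prod_dvd [Fintype X] [Group.IsSolvable X] {V : Type*} [CommGroup V] [Finite V] {p : ℕ}
    [hp : Fact p.Prime] (hV : IsPGroup p V) (c : X →* MulAut V) (hc : c ≠ 1)
    (hirr : ∀ W : Subgroup V, (∀ x, ∀ w ∈ W, c x w ∈ W) → W = ⊥ ∨ W = ⊤) :
    ∏ x, Nat.card (fx (c x)) ^ 2 ∣ Nat.card V ^ Nat.card X := by
  have hs := Group.isSolvable_of_surjective c.rangeRestrict_surjective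
  have hi : ∀ W : Subgroup V, (∀ x : c.range, ∀ w ∈ W, c.range.subtype x w ∈ W) →
    W = ⊥ ∨ W = ⊤ := fun W hW => hirr W fun x => hW ⟨_, x, rfl⟩
  obtain ⟨N, hN, hN1, hmin⟩ : ∃ N : Subgroup c.range, N.Normal ∧ N ≠ ⊥ ∧
      ∀ K : Subgroup c.range, K.Normal → K < N → K = ⊥ := by
    obtain ⟨N, -, h1, h2⟩ := Finite.exists_le_minimal (a := ⊤)
      (p := fun N : Subgroup c.range => N.Normal ∧ N ≠ ⊥) ⟨inferInstance, by
        have := (nontrivial_iff_ne_bot _).2 (mt MonoidHom.range_eq_bot_iff.1 hc)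
        exact top_ne_bot⟩
    exact ⟨N, h1.1, h1.2, fun K hK h => by_contra fun e => h.not_ge (h2 ⟨hK, e⟩ h.le)⟩
  have := Fintype.ofFinite N
  have h1 : ∀ a ∈ N, ∀ b ∈ N, a * b = b * a := fun a ha b hb => commutatorElement_eq_one_iff_mul_comm.1
    (mem_bot.1 (hmin _ inferInstance (Group.IsSolvable.commutator_lt_of_ne_bot hN1) ▸
      commutator_mem_commutator ha hb))
  have h2 : ∀ M : Subgroup c.range, M.Normal → IsPGroup p M → M = ⊥ := fun M _ hM =>
    eq_bot_iff.2 fun x hx => Subtype.ext (eq_one_of_pgroup hV _ hi M (hM.map _) hx)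
  have h3 : (Nat.card N).Coprime (Nat.card V) := by
    obtain ⟨k, hk⟩ := hV.exists_card_eq
    refine hk ▸ ((Nat.Prime.coprime_iff_not_dvd hp.out).2 fun h => ?_).symm.pow_right k
    obtain ⟨x, hx⟩ := exists_prime_orderOf_dvd_card' p h
    let M : Subgroup c.range :=
      { carrier := {a | a ∈ N ∧ a ^ p = 1}
        one_mem' := ⟨one_mem _, one_pow _⟩
        mul_mem' := fun {a b} ha hb => ⟨mul_mem ha.1 hb.1, by
          rw [Commute.mul_pow (h1 _ ha.1 _ hb.1), ha.2, hb.2, one_mul]⟩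
        inv_mem' := fun ha => ⟨inv_mem ha.1, by rw [inv_pow, ha.2, inv_one]⟩ }
    have := h2 M ⟨fun a ha g => ⟨hN.conj_mem _ ha.1 g, by rw [conj_pow, ha.2]; simp⟩⟩
      fun a => ⟨1, Subtype.ext (by simpa using a.2.2)⟩
    have h4 : (x : c.range) = 1 := mem_bot.1 (this ▸ ⟨x.2, by
      rw [← hx, ← orderOf_coe, pow_orderOf_eq_one]⟩)
    exact hp.out.ne_one (by rw [← hx, ← orderOf_coe, h4, orderOf_one])
  have h4 : fxS c.range.subtype N = ⊥ := (hi _ fun y w hw => mem_fxS.2 fun a ha => by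
    have := mem_fxS.1 hw _ (hN.conj_mem' a ha y)
    simpa [MulEquiv.symm_apply_eq] using this).resolve_right fun e => hN1 (eq_bot_iff.2
      fun x hx => Subtype.ext (MulEquiv.ext fun v => mem_fxS.1 (e ▸ mem_top v) x hx))
  choose s hs using c.rangeRestrict_surjective
  rw [← Nat.pow_dvd_pow_iff (Nat.card_pos (α := N)).ne', ← pow_mul, mul_comm, pow_mul,
    Nat.card_eq_fintype_card (α := X), ← Finset.card_univ, ← Finset.prod_const]
  nth_rw 1 [Nat.card_eq_fintype_card (α := N)]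
  rw [← Finset.card_univ, ← Finset.prod_const, Finset.prod_congr rfl fun (n : N) _ =>
    (Equiv.prod_comp (Equiv.mulRight (s n)) _).symm, Finset.prod_comm]
  refine Finset.prod_dvd_prod_of_dvd _ _ fun x _ => ?_
  refine (Finset.prod_congr rfl fun n _ => ?_).dvd.trans
    (coset c.range.subtype h1 h3 h4 (c.rangeRestrict x))
  rw [Equiv.coe_mulRight, map_mul, map_mul, show c (s n) = n from congrArg Subtype.val (hs n)]
  rfl

end Cfsg.Agent.Char.AvgFix
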