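import Mathlib
import Cfsg.Agent.Char.DiffFour

/-!
`χ 1 - χ u = 4` or `χ u = 0`, `u` an involution: the three-dimensional characters.
-/

set_option autoImplicit false
set_option linter.style.haveILetI false
set_option linter.unusedSectionVars false

namespace Cfsg.Agent.Char.Four

open Subgroup Cfsg.Agent.Char
open scoped ComplexConjugate

variable {G : Type*} [Group G] [Fintype G]

local notation "𝟙" => (fun _ : G => (1 : ℂ))
local notation "⟪" a ", " b "⟫" => classInner a b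

theorem inn_congr {a b c d : G → ℂ} (h : ∀ g, a g * conj (b g) = c g * conj (d g)) :
    ⟪a, b⟫ = ⟪c, d⟫ := by
  rw [classInner_def, classInner_def, Finset.sum_congr rfl fun g _ => h g]

theorem orth {a b : G → ℂ} (ha : IsIrrCharacter G a) (hb : IsIrrCharacter G b) {m n : ℂ}
    (h1 : a 1 = m) (h2 : b 1 = n) (h : m ≠ n) : ⟪a, b⟫ = 0 :=
  ha.inner_eq_zero hb fun e => h (by rw [← h1, ← h2, e])

theorem orth1 {a : G → ℂ} (ha : IsIrrCharacter G a) {m : ℂ} (h1 : a 1 = m) (h : m ≠ 1) :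
    ⟪a, 𝟙⟫ = 0 := orth ha isIrrCharacter_one h1 rfl h

theorem inn11 : ⟪𝟙, 𝟙⟫ = 1 := isIrrCharacter_one.inner_self

theorem nat_add_one_ne {a b : G → ℂ} (ha : IsCharacter G a) (hb : IsCharacter G b) :
    ⟪a, b⟫ + 1 ≠ 0 := by
  obtain ⟨n, hn⟩ := ha.exists_nat_inner hb
  rw [hn]
  exact_mod_cast n.succ_ne_zero

theorem peel {Θ : G → ℂ} (hΘ : IsCharacter G Θ) (h0 : ⟪Θ, 𝟙⟫ = 0) (hne : Θ ≠ 0) :
    ∃ μ, IsIrrCharacter G μ ∧ μ ≠ 𝟙 ∧ IsCharacter G (Θ - μ) ∧ ⟪Θ - μ, 𝟙⟫ = 0 := by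
  obtain ⟨μ, hμ, h⟩ := hΘ.isClassFunction.exists_irr_inner_ne_zero hne
  have h1 : μ ≠ 𝟙 := by rintro rfl; exact h h0
  exact ⟨μ, hμ, h1, hΘ.sub_irr hμ h, by
    rw [classInner_sub_left, h0, hμ.inner_eq_zero isIrrCharacter_one h1, sub_zero]⟩

namespace Hyp

variable {u : G} (H : Hyp u) (hu : u * u = 1)
include H hu

theorem irr_diff {χ : G → ℂ} (hχ : IsIrrCharacter G χ) (h1 : χ ≠ 𝟙) :
    ∃ j : ℕ, 1 ≤ j ∧ χ 1 - χ u = 4 * j ∧ (j = 1 ∨ χ 1 = 4 * j) := by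
  rcases H.alt χ hχ h1 with h | h
  · exact ⟨1, le_rfl, by simpa using h, Or.inl rfl⟩
  · obtain ⟨j, hj⟩ := four_dvd H.perfect hχ.isCharacter hu
    rw [h, sub_zero] at hj
    refine ⟨j, Nat.pos_of_ne_zero ?_, by rw [h, sub_zero, hj], Or.inr hj⟩
    rintro rfl
    exact hχ.one_ne_zero (by simpa using hj)

theorem peel' {Θ : G → ℂ} (hΘ : IsCharacter G Θ) (h0 : ⟪Θ, 𝟙⟫ = 0) (hne : Θ ≠ 0) {k : ℕ}
    (hk : Θ 1 - Θ u = 4 * k) : ∃ (μ : G → ℂ) (j i : ℕ), IsIrrCharacter G μ ∧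
      IsCharacter G (Θ - μ) ∧ ⟪Θ - μ, 𝟙⟫ = 0 ∧ 1 ≤ j ∧ j + i = k ∧ μ 1 - μ u = 4 * j ∧
      (Θ - μ) 1 - (Θ - μ) u = 4 * i ∧ (j = 1 ∨ μ 1 = 4 * j) := by
  obtain ⟨μ, hμ, h1, h2, h3⟩ := peel hΘ h0 hne
  obtain ⟨j, hj1, hj2, hj3⟩ := H.irr_diff hu hμ h1
  obtain ⟨i, hi⟩ := four_dvd H.perfect h2 hu
  refine ⟨μ, j, i, hμ, h2, h3, hj1, ?_, hj2, hi, hj3⟩
  simp only [Pi.sub_apply] at hi
  have : ((j + i : ℕ) : ℂ) = k := by push_cast; linear_combination (hk - hj2 - hi) / 4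
  exact_mod_cast this

theorem dec0 {Θ : G → ℂ} (hΘ : IsCharacter G Θ) (h0 : ⟪Θ, 𝟙⟫ = 0) (h : Θ 1 - Θ u = 0) : Θ = 0 := by
  by_contra hne
  obtain ⟨μ, j, i, -, -, -, h1, h2, -⟩ := H.peel' hu hΘ h0 hne (k := 0) (by simpa using h)
  omega

theorem dec1 {Θ : G → ℂ} (hΘ : IsCharacter G Θ) (h0 : ⟪Θ, 𝟙⟫ = 0) (h : Θ 1 - Θ u = 4) :
    IsIrrCharacter G Θ := by
  obtain ⟨μ, j, i, hμ, h1, h2, h3, h4, -, h5, -⟩ := H.peel' hu hΘ h0
    (by rintro rfl; simp at h) (k := 1) (by simpa using h)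
  obtain rfl : i = 0 := by omega
  rwa [sub_eq_zero.1 (H.dec0 hu h1 h2 (by simpa using h5))]

theorem dec2 {Θ : G → ℂ} (hΘ : IsCharacter G Θ) (h0 : ⟪Θ, 𝟙⟫ = 0) (h : Θ 1 - Θ u = 8)
    (h8 : Θ 1 ≠ 8) : ∃ (α β : G → ℂ) (a b : ℕ), IsIrrCharacter G α ∧ IsIrrCharacter G β ∧
      Θ = α + β ∧ α 1 = a ∧ β 1 = b ∧ 3 ≤ a ∧ a ≤ b ∧ α 1 - α u = 4 ∧ β 1 - β u = 4 := by
  obtain ⟨μ, j, i, hμ, h1, h2, h3, h4, h5, h6, h7⟩ := H.peel' hu hΘ h0
    (by rintro rfl; simp at h) (k := 2) (by rw [h]; norm_num)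
  have h9 : j = 1 ∨ j = 2 := by omega
  rcases h9 with rfl | rfl
  · obtain rfl : i = 1 := by omega
    simp only [Nat.cast_one, mul_one] at h5 h6
    have hν := H.dec1 hu h1 h2 h6
    obtain ⟨a, ha3, ha⟩ := H.three_le hμ h5
    obtain ⟨b, hb3, hb⟩ := H.three_le hν h6
    rcases le_total a b with hab | hab
    · exact ⟨μ, Θ - μ, a, b, hμ, hν, by abel, ha, hb, ha3, hab, h5, h6⟩
    · exact ⟨Θ - μ, μ, b, a, hν, hμ, by abel, hb, ha, hb3, hab, h6, h5⟩
  · obtain rfl : i = 0 := by omega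
    have := sub_eq_zero.1 (H.dec0 hu h1 h2 (by simpa using h6))
    exact absurd (by rw [this, h7.resolve_left (by norm_num)]; norm_num) h8

theorem dec3 {Θ : G → ℂ} (hΘ : IsCharacter G Θ) (h0 : ⟪Θ, 𝟙⟫ = 0) (h : Θ 1 - Θ u = 12)
    (h10 : Θ 1 = 10) : ∃ α β γ : G → ℂ, IsIrrCharacter G α ∧ IsIrrCharacter G β ∧
      IsIrrCharacter G γ ∧ Θ = α + β + γ ∧ α 1 = 3 ∧ β 1 = 3 ∧ γ 1 = 4 ∧ γ u = 0 := by
  obtain ⟨μ, j, i, hμ, h1, h2, h3, h4, h5, h6, h7⟩ := H.peel' hu hΘ h0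
    (by rintro rfl; simp at h) (k := 3) (by rw [h]; norm_num)
  have h9 : j = 1 ∨ j = 2 ∨ j = 3 := by omega
  rcases h9 with rfl | rfl | rfl
  · obtain rfl : i = 2 := by omega
    simp only [Nat.cast_one, mul_one] at h5
    obtain ⟨c, hc3, hc⟩ := H.three_le hμ h5
    obtain ⟨α, β, a, b, hα, hβ, e, ha, hb, ha3, hab, h11, h12⟩ := H.dec2 hu h1 h2
      (by rw [h6]; norm_num) (by
        rw [Pi.sub_apply, h10, hc]
        intro e
        have : (c : ℂ) = (2 : ℕ) := by push_cast; linear_combination -e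
        have : c = 2 := by exact_mod_cast this
        omega)
    have e1 := congrFun e 1
    simp only [Pi.sub_apply, Pi.add_apply, h10, hc, ha, hb] at e1
    have e2 : a + b + c = 10 := by
      have : ((a + b + c : ℕ) : ℂ) = (10 : ℕ) := by push_cast; linear_combination -e1
      exact_mod_cast this
    have e3 : Θ = α + β + μ := by rw [← e]; abel
    have h13 : (a = 3 ∧ b = 3 ∧ c = 4) ∨ (a = 3 ∧ b = 4 ∧ c = 3) := by omega
    rcases h13 with ⟨rfl, rfl, rfl⟩ | ⟨rfl, rfl, rfl⟩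
    · exact ⟨α, β, μ, hα, hβ, hμ, e3, by simpa using ha, by simpa using hb, by simpa using hc,
        by rw [hc] at h5; push_cast at h5; linear_combination -h5⟩
    · exact ⟨α, μ, β, hα, hμ, hβ, by rw [e3]; abel, by simpa using ha, by simpa using hc,
        by simpa using hb, by rw [hb] at h12; push_cast at h12; linear_combination -h12⟩
  · obtain rfl : i = 1 := by omega
    simp only [Nat.cast_one, mul_one] at h6
    obtain ⟨b, hb3, hb⟩ := H.three_le (H.dec1 hu h1 h2 h6) h6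
    rw [Pi.sub_apply, h10, h7.resolve_left (by norm_num)] at hb
    have : (b : ℂ) = (2 : ℕ) := by push_cast at hb ⊢; linear_combination -hb
    have : b = 2 := by exact_mod_cast this
    omega
  · obtain rfl : i = 0 := by omega
    have := sub_eq_zero.1 (H.dec0 hu h1 h2 (by simpa using h6))
    rw [this, h7.resolve_left (by norm_num)] at h10
    norm_num at h10

theorem val3 {χ : G → ℂ} (hχ : IsIrrCharacter G χ) (h3 : χ 1 = 3) : χ u = -1 := by
  obtain ⟨j, h1, h2, h4⟩ := H.irr_diff hu hχ (by rintro rfl; norm_num at h3)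
  rcases h4 with rfl | h4
  · rw [h3] at h2; push_cast at h2; linear_combination -h2
  · rw [h3] at h4
    have : 3 = 4 * j := by exact_mod_cast h4
    omega

/-- The product of two non-dual three-dimensional characters has norm two. -/
theorem norm_two {χ φ : G → ℂ} (hχ : IsIrrCharacter G χ) (h3 : χ 1 = 3) (hφ : IsIrrCharacter G φ)
    (h3' : φ 1 = 3) (hne : φ ≠ fun g => conj (χ g)) :
    ⟪χ * φ, 𝟙⟫ = 0 ∧ ⟪χ * φ, χ * φ⟫ = 2 := by
  have h0 : ⟪χ * φ, 𝟙⟫ = 0 := by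
    rw [← hφ.inner_eq_zero hχ.conj hne]
    exact inn_congr fun g => by simp [mul_comm]
  refine ⟨h0, ?_⟩
  obtain ⟨α, β, a, b, hα, hβ, e, ha, hb, -⟩ := H.dec2 hu (hχ.isCharacter.mul hφ.isCharacter) h0
    (by simp only [Pi.mul_apply, h3, h3', H.val3 hu hχ h3, H.val3 hu hφ h3']; norm_num)
    (by simp only [Pi.mul_apply, h3, h3']; norm_num)
  have e1 := congrFun e 1
  simp only [Pi.mul_apply, Pi.add_apply, h3, h3', ha, hb] at e1
  have hab : (a : ℂ) ≠ b := fun e2 => by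
    have : (9 : ℕ) = 2 * b := by
      have : ((9 : ℕ) : ℂ) = (2 * b : ℕ) := by push_cast; linear_combination e1 + e2
      exact_mod_cast this
    omega
  rw [e, classInner_add_left, classInner_add_right, classInner_add_right, hα.inner_self,
    hβ.inner_self, orth hα hβ ha hb hab, orth hβ hα hb ha hab.symm]
  norm_num

/-- Three-dimensional characters are real. -/
theorem real3 {χ : G → ℂ} (hχ : IsIrrCharacter G χ) (h3 : χ 1 = 3) (g : G) : conj (χ g) = χ g := by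
  have hG := H.perfect
  by_contra hg
  set c : G → ℂ := fun g => conj (χ g) with hc
  have hcχ : IsIrrCharacter G c := hχ.conj
  have hne : χ ≠ c := fun e => hg (congrFun e g).symm
  have hv := H.val3 hu hχ h3
  have c1 : c 1 = 3 := by simp only [hc, h3, map_ofNat]
  have cu : c u = -1 := by simp [hc, hv]
  set ψ : G → ℂ := χ * χ - c with hψ
  have hψc : IsCharacter G ψ := by
    convert isCharacter_symSq hχ.isCharacter using 1
    funext x
    simp only [hψ, hc, symSq, (rec3 hG hχ.isCharacter h3 x).1, Pi.sub_apply, Pi.mul_apply]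
    ring
  have ψ1 : ψ 1 = 6 := by simp only [hψ, Pi.sub_apply, Pi.mul_apply, h3, c1]; norm_num
  have ψu : ψ u = 2 := by simp only [hψ, Pi.sub_apply, Pi.mul_apply, hv, cu]; norm_num
  obtain ⟨n0, n2⟩ := H.norm_two hu hχ h3 hχ h3 hne
  have ψ0 : ⟪ψ, 𝟙⟫ = 0 := by rw [hψ, classInner_sub_left, n0, orth1 hcχ c1 (by norm_num), sub_zero]
  have hψi := H.dec1 hu hψc ψ0 (by rw [ψ1, ψu]; norm_num)
  have t1 : ∀ {φ : G → ℂ}, IsIrrCharacter G φ → ⟪φ * fun g => conj (φ g), 𝟙⟫ = 1 := fun {φ} hφ =>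
    (inn_congr fun g => by simp).trans hφ.inner_self
  have t2 : ∀ {φ : G → ℂ}, IsIrrCharacter G φ →
      IsCharacter G ((φ * fun g => conj (φ g)) - 𝟙) := fun {φ} hφ =>
    (hφ.isCharacter.mul hφ.conj.isCharacter).sub_irr isIrrCharacter_one (by rw [t1 hφ]; norm_num)
  set θ : G → ℂ := χ * c - 𝟙 with hθ
  have t3 : ∀ {φ : G → ℂ}, IsIrrCharacter G φ → φ 1 = 3 → φ ≠ c →
      ⟪(φ * fun g => conj (φ g)) - 𝟙, θ⟫ = 1 := fun {φ} hφ hφ3 hφc => by
    have e1 : ⟪φ * fun g => conj (φ g), χ * c⟫ = 2 := by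
      rw [← (H.norm_two hu hχ h3 hφ hφ3 hφc).2]
      exact inn_congr fun g => by simp [hc]; ring
    have e2 : ⟪𝟙, χ * c⟫ = 1 := by
      rw [← classInner_conj_symm, t1 hχ, map_one]
    rw [hθ, classInner_sub_left, classInner_sub_right, classInner_sub_right, e1, t1 hφ, e2, inn11]
    norm_num
  have hθi : IsIrrCharacter G θ := (t2 hχ).isIrr_of_inner_self (t3 hχ h3 hne)
  have θ1 : θ 1 = 8 := by simp only [hθ, Pi.sub_apply, Pi.mul_apply, h3, c1]; norm_num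
  have θu : θ u = 0 := by simp only [hθ, Pi.sub_apply, Pi.mul_apply, hv, cu]; norm_num
  have t4 : ∀ {φ : G → ℂ}, IsIrrCharacter G φ → φ 1 = 3 → ∀ x,
      φ x * conj (φ x) = χ x * conj (χ x) := fun {φ} hφ hφ3 x => by
    by_cases hφc : φ = c
    · simp [hφc, hc, mul_comm]
    · have := congrFun ((t2 hφ).eq_of_inner_ne_zero_of_one_eq hθi (by rw [t3 hφ hφ3 hφc]; norm_num)
        (by simp only [Pi.sub_apply, Pi.mul_apply, hφ3, θ1, map_ofNat]; norm_num)) x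
      simpa [hθ, hc] using this
  have r1 : ⟪χ * ψ, θ⟫ ≠ 0 := by
    have : ⟪χ * ψ, θ⟫ = ⟪ψ, (χ * fun g => conj (ψ g)) + ψ⟫ :=
      inn_congr fun g => by simp [hθ, hψ, hc]; ring
    rw [this, classInner_add_right, hψi.inner_self]
    exact nat_add_one_ne hψc (hχ.isCharacter.mul hψc.conj)
  have hR := (hχ.isCharacter.mul hψc).sub_irr hθi r1
  have r0 : ⟪χ * ψ - θ, 𝟙⟫ = 0 := by
    have : ⟪χ * ψ, 𝟙⟫ = ⟪ψ, c⟫ := inn_congr fun g => by simp [hc, mul_comm]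
    rw [classInner_sub_left, this, orth hψi hcχ ψ1 c1 (by norm_num), orth1 hθi θ1 (by norm_num),
      sub_zero]
  obtain ⟨α, β, γ, hα, hβ, hγ, e, α1, β1, γ1, γu⟩ := H.dec3 hu hR r0
    (by simp only [Pi.sub_apply, Pi.mul_apply, h3, hv, ψ1, ψu, θ1, θu]; norm_num)
    (by simp only [Pi.sub_apply, Pi.mul_apply, h3, ψ1, θ1]; norm_num)
  have w1 : ⟪γ * c, ψ⟫ ≠ 0 := by
    have : ⟪γ * c, ψ⟫ = ⟪γ, χ * ψ⟫ := inn_congr fun g => by simp [hc]; ring
    rw [this, sub_eq_iff_eq_add.1 e, classInner_add_right, classInner_add_right,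
      classInner_add_right, orth hγ hα γ1 α1 (by norm_num), orth hγ hβ γ1 β1 (by norm_num),
      orth hγ hθi γ1 θ1 (by norm_num), hγ.inner_self]
    norm_num
  have hW := (hγ.isCharacter.mul hcχ.isCharacter).sub_irr hψi w1
  have w0 : ⟪γ * c - ψ, 𝟙⟫ = 0 := by
    have : ⟪γ * c, 𝟙⟫ = ⟪γ, χ⟫ := inn_congr fun g => by simp [hc]
    rw [classInner_sub_left, this, orth hγ hχ γ1 h3 (by norm_num), ψ0, sub_zero]
  obtain ⟨α', β', a, b, hα', hβ', e', ha, hb, ha3, hab, -⟩ := H.dec2 hu hW w0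
    (by simp only [Pi.sub_apply, Pi.mul_apply, γ1, γu, c1, ψ1, ψu]; norm_num)
    (by simp only [Pi.sub_apply, Pi.mul_apply, γ1, c1, ψ1]; norm_num)
  have e1 := congrFun e' 1
  simp only [Pi.sub_apply, Pi.mul_apply, Pi.add_apply, γ1, c1, ψ1, ha, hb] at e1
  have e2 : a + b = 6 := by
    have : ((a + b : ℕ) : ℂ) = (6 : ℕ) := by push_cast; linear_combination -e1
    exact_mod_cast this
  obtain rfl : a = 3 := by omega
  obtain rfl : b = 3 := by omega
  have key : ∀ x : G, IsConj x x⁻¹ → θ x + γ x = 0 ∨ θ x + γ x = 12 := fun x hx => by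
    have re : ∀ {φ : G → ℂ}, IsIrrCharacter G φ → ∀ k : ℕ, conj (φ (x ^ k)) = φ (x ^ k) :=
      fun {φ} hφ k => by
        rw [← hφ.map_inv, ← inv_pow]
        exact (hφ.isClassFunction.eq_of_isConj (hx.pow k)).symm
    have eq : ∀ {φ : G → ℂ}, IsIrrCharacter G φ → φ 1 = 3 → φ x = χ x := fun {φ} hφ hφ3 => by
      have a1 := t4 hφ hφ3 x
      have a2 := t4 hφ hφ3 (x ^ 2)
      have a3 := re hφ 1
      have a4 := re hχ 1
      rw [pow_one] at a3 a4
      rw [re hφ, re hχ, pow_two, (rec3 hG hφ.isCharacter hφ3 x).1, (rec3 hG hχ.isCharacter h3 x).1,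
        a3, a4] at a2
      rw [a3, a4] at a1
      rcases mul_self_eq_mul_self_iff.1 a1 with h | h
      · exact h
      · rw [h] at a2 ⊢
        have : χ x ^ 3 = 0 := by linear_combination a2 / 8
        simp [pow_eq_zero_iff (three_ne_zero) |>.1 this]
    have a4 := re hχ 1
    rw [pow_one] at a4
    have f1 := congrFun e x
    have f2 := congrFun e' x
    simp only [Pi.sub_apply, Pi.mul_apply, Pi.add_apply, hθ, hψ, hc, a4, eq hα α1, eq hβ β1,
      eq hα' (by simpa using ha), eq hβ' (by simpa using hb)] at f1 f2 ⊢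
    have f3 : χ x ^ 2 * ((χ x - 3) * (χ x + 1)) = 0 := by linear_combination f2 + χ x * f1
    have f4 : χ x * χ x - 1 + γ x = χ x * (χ x - 2) * (χ x + 1) := by linear_combination -f1
    rw [f4]
    rcases mul_eq_zero.1 f3 with h | h
    · simp [pow_eq_zero_iff (two_ne_zero) |>.1 h]
    · rcases mul_eq_zero.1 h with h | h
      · rw [sub_eq_zero.1 h]; norm_num
      · simp [h]
  have s1 := hθi.one_mul_sum_conj_mul u u
  have s2 := hγ.one_mul_sum_conj_mul u u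
  rw [θu, mul_zero, θ1, mul_eq_zero] at s1
  rw [γu, mul_zero, γ1, mul_eq_zero] at s2
  have s3 : ∑ a : G, (θ (a * u * a⁻¹ * u) + γ (a * u * a⁻¹ * u)).re = 0 := by
    rw [← Complex.re_sum, Finset.sum_add_distrib, s1.resolve_left (by norm_num),
      s2.resolve_left (by norm_num)]
    simp
  have hui : u⁻¹ = u := inv_eq_of_mul_eq_one_right hu
  have := (Finset.sum_eq_zero_iff_of_nonneg fun a _ => by
    rcases key (a * u * a⁻¹ * u) (isConj_iff.2 ⟨u, by simp [mul_assoc, hui, hu]⟩) with h | h <;>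
      rw [h] <;> norm_num).1 s3 1 (Finset.mem_univ _)
  simp only [one_mul, inv_one, mul_one, hu, θ1, γ1] at this
  norm_num at this

end Hyp

end Cfsg.Agent.Char.Four
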