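import Mathlib
import Cfsg.Agent.Char.Codeg
import Cfsg.Agent.Char.Zeros
import Cfsg.Agent.Char.Integrality
import Cfsg.Agent.Char.BrauerPerm
import Cfsg.Agent.Grp.Cores
import Cfsg.Agent.Solv.Frobenius
import Cfsg.Agent.Inv.Basic
import Cfsg.Agent.Char.Restrict
import Cfsg.Agent.Char.InvSylow

/-! Gagola: irreducible characters vanishing on all but two conjugacy classes. -/

set_option autoImplicit false
set_option maxSynthPendingDepth 3

namespace Cfsg.Agent.Char

open Cfsg Cfsg.Agent.Char Cfsg.Agent.Char.Codeg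
open scoped ComplexConjugate

variable {G : Type*} [Group G] {χ : G → ℂ} {N : Subgroup G}

theorem sum_eq_of_two_classes [Fintype G] {f : G → ℂ} (hf : IsClassFunction G f) {x : G} (hx : x ≠ 1)
    (h : ∀ g, f g ≠ 0 → g = 1 ∨ IsConj x g) :
    ∑ g, f g = f 1 + (Subgroup.centralizer ({x} : Set G)).index * f x := by
  classical
  rw [← card_filter_isConj, ← Finset.add_sum_erase _ _ (Finset.mem_univ 1), ← nsmul_eq_mul,
    ← Finset.sum_const]
  congr 1
  rw [Finset.sum_congr rfl (g := f) (fun g hg => hf.eq_of_isConj (Finset.mem_filter.1 hg).2)]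
  refine (Finset.sum_subset (fun g hg => ?_) fun g hg hg' => ?_).symm
  · refine Finset.mem_erase.2 ⟨?_, Finset.mem_univ _⟩
    rintro rfl
    exact hx (isConj_one_left.1 (Finset.mem_filter.1 hg).2)
  · by_contra h0
    exact hg' (Finset.mem_filter.2 ⟨Finset.mem_univ _, (h g h0).resolve_left (Finset.ne_of_mem_erase hg)⟩)

/-- `χ` vanishes off the normal subgroup `N`, whose non-identity elements form one class. -/
structure Gagola (χ : G → ℂ) (N : Subgroup G) : Prop where
  irr : IsIrrCharacter G χ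
  card : 2 < Nat.card G
  supp : ∀ g, g ∈ N ↔ χ g ≠ 0
  ne_bot : N ≠ ⊥
  isConj : ∀ x ∈ N, ∀ y ∈ N, x ≠ 1 → y ≠ 1 → IsConj x y

section Pre

variable [Finite G] {x : G}

theorem gag_ne_one (hG : 2 < Nat.card G) (hx : x ≠ 1) (h : ∀ g, χ g ≠ 0 → g = 1 ∨ IsConj x g) :
    χ ≠ fun _ => 1 := by
  haveI := Fintype.ofFinite G
  rintro rfl
  have := sum_eq_of_two_classes (isClassFunction_const (G := G) 1) hx h
  simp only [Finset.sum_const, Finset.card_univ, nsmul_eq_mul, mul_one, ← Nat.card_eq_fintype_card] at this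
  have h1 : Nat.card G = 1 + (Subgroup.centralizer ({x} : Set G)).index := by exact_mod_cast this
  have h2 := (Subgroup.centralizer ({x} : Set G)).index_dvd_card
  rw [h1] at h2
  have := Nat.dvd_one.1 ((Nat.dvd_add_left dvd_rfl).1 h2)
  omega

theorem gag_one_add (hχ : IsIrrCharacter G χ) (hG : 2 < Nat.card G) (hx : x ≠ 1)
    (h : ∀ g, χ g ≠ 0 → g = 1 ∨ IsConj x g) :
    χ 1 + (Subgroup.centralizer ({x} : Set G)).index * χ x = 0 := by
  haveI := Fintype.ofFinite G
  rw [← sum_eq_of_two_classes hχ.isClassFunction hx h, hχ.sum_eq_zero (gag_ne_one hG hx h)]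

theorem gag_ker (hχ : IsIrrCharacter G χ) (hG : 2 < Nat.card G) (hx : x ≠ 1)
    (h : ∀ g, χ g ≠ 0 → g = 1 ∨ IsConj x g) {ψ : G → ℂ} (hψ : IsIrrCharacter G ψ) (hne : ψ ≠ χ) :
    ψ x = ψ 1 := by
  haveI := Fintype.ofFinite G
  have h1 := sum_eq_of_two_classes (f := fun g => χ g * conj (ψ g))
    (hχ.isClassFunction.mul hψ.isClassFunction.conj) hx (fun g hg => h g (left_ne_zero_of_mul hg))
  rw [sum_mul_conj_eq, hχ.inner_eq_zero hψ hne.symm, mul_zero, ← mul_assoc,
    eq_neg_of_add_eq_zero_right (gag_one_add hχ hG hx h)] at h1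
  have h2 : χ 1 * (conj (ψ 1) - conj (ψ x)) = 0 := by linear_combination -h1
  exact (starRingEnd ℂ).injective (sub_eq_zero.1 ((mul_eq_zero.1 h2).resolve_left hχ.one_ne_zero)).symm

theorem exists_gagola (hG : 2 < Nat.card G) (hχ : IsIrrCharacter G χ)
    (h2 : Nat.card {C : ConjClasses G // ∃ g ∈ C.carrier, χ g ≠ 0} = 2) : ∃ N, Gagola χ N := by
  classical
  obtain ⟨⟨C, x, hxC, hx0⟩, hC, hu⟩ := (Nat.card_eq_two_iff'
    ⟨ConjClasses.mk 1, 1, ConjClasses.mem_carrier_mk, hχ.one_ne_zero⟩).1 h2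
  rw [ConjClasses.mem_carrier_iff_mk_eq] at hxC
  subst hxC
  have hx : x ≠ 1 := by rintro rfl; exact hC rfl
  have h : ∀ g, χ g ≠ 0 → g = 1 ∨ IsConj x g := fun g hg => by
    by_cases h1 : g = 1
    · exact Or.inl h1
    · have := hu ⟨ConjClasses.mk g, g, ConjClasses.mem_carrier_mk, hg⟩ fun e =>
        h1 (isConj_one_left.1 (ConjClasses.mk_eq_mk_iff_isConj.1 (congrArg Subtype.val e)))
      exact Or.inr (ConjClasses.mk_eq_mk_iff_isConj.1 (congrArg Subtype.val this)).symm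
  set N : Subgroup G := ⨅ ψ : {ψ : IrrCharacter G // ψ ≠ ⟨χ, hχ⟩}, charKer (ψ.1 : G → ℂ) with hN
  have hs : ∀ g, g ∈ N ↔ χ g ≠ 0 := by
    intro g
    simp only [hN, Subgroup.mem_iInf, mem_charKer_irr]
    constructor
    · intro hg h0
      have hg1 : g ≠ 1 := by rintro rfl; exact hχ.one_ne_zero h0
      have h1 := sum_irr_one_mul hg1
      rw [← Finset.add_sum_erase _ _ (Finset.mem_univ ⟨χ, hχ⟩), Finset.sum_congr rfl
        (g := fun ψ : IrrCharacter G => ((charDegree (ψ : G → ℂ) ^ 2 : ℕ) : ℂ)) (fun ψ hψ => by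
          rw [hg ⟨ψ, Finset.ne_of_mem_erase hψ⟩, ← coe_charDegree_irr]; push_cast; ring)] at h1
      simp only [h0, mul_zero, zero_add] at h1
      have h3 : ∑ ψ ∈ Finset.univ.erase (⟨χ, hχ⟩ : IrrCharacter G), charDegree (ψ : G → ℂ) ^ 2 = 0 := by
        exact_mod_cast h1
      have h4 := Finset.sum_eq_zero_iff.1 h3 (irrOne G) (Finset.mem_erase.2
        ⟨fun e => gag_ne_one hG hx h (congrArg Subtype.val e).symm, Finset.mem_univ _⟩)
      exact charDegree_irr_ne_zero _ (pow_eq_zero_iff two_ne_zero |>.1 h4)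
    · rintro hg ⟨ψ, hψ⟩
      rcases h g hg with rfl | hc
      · rfl
      · rw [← ψ.2.isClassFunction.eq_of_isConj hc]
        exact gag_ker hχ hG hx h ψ.2 fun e => hψ (Subtype.ext e)
  refine ⟨N, hχ, hG, hs, fun e => hx (Subgroup.mem_bot.1 (e ▸ (hs x).2 hx0)), fun a ha b hb ha1 hb1 => ?_⟩
  exact ((h a ((hs a).1 ha)).resolve_left ha1).symm.trans ((h b ((hs b).1 hb)).resolve_left hb1)

theorem gagola_of (hG : 2 < Nat.card G) (hχ : IsIrrCharacter G χ)
    (h2 : Nat.card {C : ConjClasses G // ∃ g ∈ C.carrier, χ g ≠ 0} = 2)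
    (hN : ∀ g, g ∈ N ↔ χ g ≠ 0) : Gagola χ N := by
  obtain ⟨N', h⟩ := exists_gagola hG hχ h2
  obtain rfl : N' = N := Subgroup.ext fun g => by rw [hN, h.supp]
  exact h

end Pre

namespace Gagola

variable [Finite G] {x : G}

omit [Finite G] in
theorem normal (h : Gagola χ N) : N.Normal :=
  ⟨fun n hn g => by rw [h.supp, h.irr.isClassFunction]; exact (h.supp n).1 hn⟩

omit [Finite G] in
theorem exists_mem (h : Gagola χ N) : ∃ x ∈ N, x ≠ 1 := by
  obtain ⟨⟨x, hx⟩, h1⟩ := Subgroup.ne_bot_iff_exists_ne_one.1 h.ne_bot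
  exact ⟨x, hx, fun e => h1 (Subtype.ext e)⟩

omit [Finite G] in
theorem two (h : Gagola χ N) (hx : x ∈ N) (h1 : x ≠ 1) (g : G) (hg : χ g ≠ 0) : g = 1 ∨ IsConj x g :=
  (em (g = 1)).imp_right fun e => h.isConj x hx g ((h.supp g).2 hg) h1 e

omit [Finite G] in
theorem zero (h : Gagola χ N) (hx : x ∉ N) : χ x = 0 := by
  by_contra e; exact hx ((h.supp x).2 e)

theorem ker (h : Gagola χ N) {ψ : G → ℂ} (hψ : IsIrrCharacter G ψ) (hne : ψ ≠ χ) (hx : x ∈ N) :
    ψ x = ψ 1 := by
  by_cases h1 : x = 1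
  · rw [h1]
  · exact gag_ker h.irr h.card h1 (h.two hx h1) hψ hne

theorem one_add (h : Gagola χ N) (hx : x ∈ N) (h1 : x ≠ 1) :
    χ 1 + (Subgroup.centralizer ({x} : Set G)).index * χ x = 0 :=
  gag_one_add h.irr h.card h1 (h.two hx h1)

theorem faithful (h : Gagola χ N) (hx : χ x = χ 1) : x = 1 := by
  by_contra h1
  have := h.one_add ((h.supp x).2 (hx ▸ h.irr.one_ne_zero)) h1
  rw [hx] at this
  have h2 : ((1 + (Subgroup.centralizer ({x} : Set G)).index : ℕ) : ℂ) * χ 1 = 0 := by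
    push_cast; linear_combination this
  exact mul_ne_zero (Nat.cast_ne_zero.2 (by omega)) h.irr.one_ne_zero h2

theorem eq_of_faithful (h : Gagola χ N) {ψ : G → ℂ} (hψ : IsIrrCharacter G ψ)
    (hf : ∀ g, ψ g = ψ 1 → g = 1) : ψ = χ := by
  by_contra hne
  obtain ⟨x, hx, h1⟩ := h.exists_mem
  exact h1 (hf x (h.ker hψ hne hx))

theorem index_add_one (h : Gagola χ N) (hx : x ∈ N) (h1 : x ≠ 1) :
    (Subgroup.centralizer ({x} : Set G)).index + 1 = Nat.card N := by
  classical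
  haveI := Fintype.ofFinite G
  haveI := h.normal
  rw [← card_filter_isConj, Nat.card_eq_fintype_card, Fintype.card_subtype,
    ← Finset.card_erase_add_one (s := Finset.univ.filter (· ∈ N)) (a := 1) (by simp)]
  congr 2
  ext g
  simp only [Finset.mem_filter, Finset.mem_univ, true_and, Finset.mem_erase]
  constructor
  · intro hc
    refine ⟨fun e => h1 (isConj_one_left.1 (e ▸ hc)), ?_⟩
    obtain ⟨c, rfl⟩ := isConj_iff.1 hc
    exact h.normal.conj_mem x hx c
  · exact fun hg => h.isConj x hx g hg.2 h1 hg.1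

theorem le_of_normal (h : Gagola χ N) {K : Subgroup G} [hK : K.Normal] (h1 : K ≠ ⊥) : N ≤ K := by
  classical
  haveI := Fintype.ofFinite K
  obtain ⟨⟨k, hk⟩, hk1⟩ := Subgroup.ne_bot_iff_exists_ne_one.1 h1
  have hs := sum_normal_eq_zero h.irr K ⟨k, hk, fun e => hk1 (Subtype.ext (h.faithful e))⟩
  obtain ⟨y, hy1, hy⟩ : ∃ y : K, y ≠ 1 ∧ χ y ≠ 0 := by
    by_contra hc
    push Not at hc
    rw [Finset.sum_eq_single 1 (fun y _ hy => hc y hy) (by simp)] at hs
    exact h.irr.one_ne_zero hs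
  intro n hn
  rcases h.two ((h.supp y).2 hy) (fun e => hy1 (Subtype.ext e)) n ((h.supp n).1 hn) with rfl | hc
  · exact K.one_mem
  · obtain ⟨c, rfl⟩ := isConj_iff.1 hc
    exact hK.conj_mem _ y.2 c

theorem exists_prime (h : Gagola χ N) : ∃ p : ℕ, p.Prime ∧ ∀ a ∈ N, a ^ p = 1 := by
  have hN : Nat.card N ≠ 1 := fun e => h.ne_bot (Subgroup.card_eq_one.1 e)
  haveI := Fact.mk (Nat.minFac_prime hN)
  obtain ⟨y, hy⟩ := exists_prime_orderOf_dvd_card' (G := N) _ (Nat.minFac_dvd _)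
  refine ⟨_, Nat.minFac_prime hN, fun a ha => ?_⟩
  have hy1 : (y : G) ≠ 1 := fun e => (Nat.minFac_prime hN).one_lt.ne' (by
    rw [← hy, show y = 1 from Subtype.ext e, orderOf_one])
  by_cases h1 : a = 1
  · rw [h1, one_pow]
  · rw [← hy, ← Subgroup.orderOf_coe, Inv.orderOf_eq_of_isConj (h.isConj y y.2 a ha hy1 h1),
      pow_orderOf_eq_one]

theorem comm (h : Gagola χ N) : ∀ a ∈ N, ∀ b ∈ N, a * b = b * a := by
  obtain ⟨p, hp, hN⟩ := h.exists_prime
  haveI := Fact.mk hp
  haveI := h.normal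
  have hP : IsPGroup p N := fun a => ⟨1, Subtype.ext (by simpa using hN a a.2)⟩
  haveI := (Subgroup.nontrivial_iff_ne_bot N).2 h.ne_bot
  have h1 : (Subgroup.center N).map N.subtype ≠ ⊥ := fun e =>
    hP.bot_lt_center.ne' ((Subgroup.map_eq_bot_iff_of_injective _ N.subtype_injective).1 e)
  intro a ha b hb
  obtain ⟨c, hc, rfl⟩ := h.le_of_normal h1 ha
  exact congrArg Subtype.val (Subgroup.mem_center_iff.1 hc ⟨b, hb⟩).symm

/-- The numerical data. -/
theorem exists_e (h : Gagola χ N) : ∃ e : ℕ, (∀ x ∈ N, x ≠ 1 → χ x = -e) ∧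
    χ 1 = (e * (Nat.card N - 1) : ℕ) ∧ Nat.card G = e ^ 2 * Nat.card N * (Nat.card N - 1) := by
  haveI := Fintype.ofFinite G
  obtain ⟨x, hx, h1⟩ := h.exists_mem
  obtain ⟨d, hd0, hd⟩ := h.irr.exists_nat_one
  have ht := h.index_add_one hx h1
  have h2 := h.one_add hx h1
  have h3 := sum_eq_of_two_classes (f := fun g => χ g * conj (χ g))
    (h.irr.isClassFunction.mul h.irr.isClassFunction.conj) h1
    (fun g hg => h.two hx h1 g (left_ne_zero_of_mul hg))
  rw [sum_mul_conj_eq, h.irr.inner_self, mul_one] at h3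
  have ht0 : (Subgroup.centralizer ({x} : Set G)).index ≠ 0 := Subgroup.index_ne_zero_of_finite
  set t := (Subgroup.centralizer ({x} : Set G)).index
  have ht0' : (t : ℂ) ≠ 0 := Nat.cast_ne_zero.2 ht0
  have h4 : χ x = -((d : ℂ) / t) := by rw [← hd]; field_simp; linear_combination h2
  obtain ⟨e, rfl⟩ := dvd_of_isIntegral_div (a := d) ht0 (by
    have := (h.irr.isCharacter.isIntegral x).neg
    rwa [h4, neg_neg] at this)
  have h5 : χ x = -e := by rw [h4]; push_cast; field_simp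
  rw [← ht, Nat.add_sub_cancel]
  refine ⟨e, fun y hy hy1 => ?_, by rw [hd, mul_comm], ?_⟩
  · rw [← h5]; exact h.irr.isClassFunction.eq_of_isConj (h.isConj y hy x hx hy1 h1)
  · rw [h5, hd] at h3
    simp only [map_neg, Complex.conj_natCast] at h3
    have : (Nat.card G : ℂ) = (e ^ 2 * (t + 1) * t : ℕ) := by rw [h3]; push_cast; ring
    exact_mod_cast this

theorem card_dvd (h : Gagola χ N) (hx : x ∈ N) {e : ℕ} (he : χ x = -e) {Q : Subgroup G}
    (hQ : x ∈ Subgroup.normalizer (Q : Set G)) (hd : Disjoint Q N) : Nat.card Q ∣ e := by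
  classical
  set L := Subgroup.normalizer (Q : Set G)
  haveI := Fintype.ofFinite (Q.subgroupOf L)
  have h1 := ((h.irr.isCharacter.restrict L).cosetAvg (Q.subgroupOf L)).isIntegral ⟨x, hQ⟩
  simp only [Subgroup.coe_mul] at h1
  rw [Finset.sum_eq_single (1 : Q.subgroupOf L) (fun y _ hy => h.zero fun hm => hy (Subtype.ext (Subtype.ext
    (Subgroup.disjoint_def.1 hd y.2 ((N.mul_mem_cancel_left (y := ((y : L) : G)) hx).1 hm))))) (by simp),
    Nat.card_congr (Subgroup.subgroupOfEquivOfLe Subgroup.le_normalizer).toEquiv] at h1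
  refine dvd_of_isIntegral_div Nat.card_pos.ne' ?_
  have := h1.neg
  simp only [OneMemClass.coe_one, mul_one, he] at this
  convert this using 1
  ring

theorem exists_pow (h : Gagola χ N) {p : ℕ} [hp : Fact p.Prime] (hN : IsPGroup p N) :
    ∃ k : ℕ, Nat.card G = p ^ k * (Nat.card N - 1) := by
  obtain ⟨e, he, -, hG⟩ := h.exists_e
  obtain ⟨x, hx, h1⟩ := h.exists_mem
  obtain ⟨a, ha⟩ := IsPGroup.iff_card.1 hN
  have ht := h.index_add_one hx h1
  have hC : Nat.card (Subgroup.centralizer ({x} : Set G)) = e ^ 2 * Nat.card N := by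
    apply Nat.eq_of_mul_eq_mul_right (Nat.pos_of_ne_zero
      (Subgroup.centralizer ({x} : Set G)).index_ne_zero_of_finite)
    rw [Subgroup.card_mul_index, hG, ← ht, Nat.add_sub_cancel]
  have he0 : e ≠ 0 := by
    rintro rfl
    exact Nat.card_pos.ne' (by simpa using hG)
  obtain ⟨b, hb⟩ : ∃ b, e = p ^ b := by
    refine ⟨_, Nat.eq_prime_pow_of_unique_prime_dvd he0 fun {q} hq hqe => ?_⟩
    by_contra hne
    haveI := Fact.mk hq
    obtain ⟨Q⟩ : Nonempty (Sylow q (Subgroup.centralizer ({x} : Set G))) := inferInstance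
    have h2 := h.card_dvd hx (he x hx h1) (Q := (Q : Subgroup _).map (Subgroup.centralizer {x}).subtype)
      (Subgroup.centralizer_le_normalizer _ (Subgroup.mem_centralizer_iff.2 (by
        rintro _ ⟨y, -, rfl⟩
        exact Subgroup.mem_centralizer_singleton_iff.1 y.2)))
      (IsPGroup.disjoint_of_ne q p hne _ _ (Q.isPGroup'.map _) hN)
    rw [Subgroup.card_map_of_injective (Subgroup.subtype_injective _), Q.card_eq_multiplicity, hC,
      hq.pow_dvd_iff_le_factorization he0, Nat.factorization_mul (pow_ne_zero _ he0) Nat.card_pos.ne',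
      Nat.factorization_pow] at h2
    have := hq.factorization_pos_of_dvd he0 hqe
    simp only [Finsupp.add_apply, Finsupp.smul_apply, smul_eq_mul] at h2
    omega
  exact ⟨2 * b + a, by rw [hG, hb, ha]; ring⟩

theorem not_dvd (h : Gagola χ N) {p : ℕ} [hp : Fact p.Prime] (hN : IsPGroup p N) :
    ¬ p ∣ Nat.card N - 1 := by
  haveI := (Subgroup.nontrivial_iff_ne_bot N).2 h.ne_bot
  obtain ⟨n, hn, e⟩ := hN.nontrivial_iff_card.1 inferInstance
  intro hd
  have h1 : p ∣ Nat.card N := e ▸ dvd_pow_self p hn.ne'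
  have := (Nat.dvd_sub_iff_right Nat.card_pos h1).1 hd
  exact hp.out.one_lt.ne' (Nat.dvd_one.1 this)

theorem sylow_of_index (h : Gagola χ N) {p : ℕ} [hp : Fact p.Prime] (hN : IsPGroup p N)
    {H : Subgroup G} (hH : H.index = Nat.card N - 1) : ∃ P : Sylow p G, H = P := by
  obtain ⟨k, hk⟩ := h.exists_pow hN
  have h1 : Nat.card H = p ^ k := by
    apply Nat.eq_of_mul_eq_mul_right (Nat.pos_of_ne_zero H.index_ne_zero_of_finite)
    rw [H.card_mul_index, hk, hH]
  exact ⟨(IsPGroup.of_card h1).toSylow (hH ▸ h.not_dvd hN), rfl⟩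

theorem centralizer_sylow (h : Gagola χ N) {p : ℕ} [hp : Fact p.Prime] (hN : IsPGroup p N)
    (hx : x ∈ N) (h1 : x ≠ 1) : ∃ P : Sylow p G, Subgroup.centralizer ({x} : Set G) = P :=
  h.sylow_of_index hN (by rw [← h.index_add_one hx h1, Nat.add_sub_cancel])

theorem inertia_index (h : Gagola χ N) [N.Normal] {μ : N → ℂ} (hμ : IsIrrCharacter N μ)
    (h1 : μ ≠ fun _ => 1) : (inertia N μ).index = Nat.card N - 1 := by
  classical
  haveI := Fintype.ofFinite G
  haveI := Fintype.ofFinite N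
  obtain ⟨e, he, hd, hG⟩ := h.exists_e
  have he0 : (e : ℂ) ≠ 0 := by
    rw [Nat.cast_ne_zero]
    rintro rfl
    exact (Nat.card_pos (α := G)).ne' (by simpa using hG)
  have hμ1 := hμ.one_eq_one_of_comm fun a b => Subtype.ext (h.comm a a.2 b b.2)
  have h2 : (fun n : N => χ n) = (e : ℂ) • regChar N - (e : ℂ) • fun _ => 1 := by
    funext n
    by_cases hn : n = 1
    · subst hn
      simp only [OneMemClass.coe_one, hd, Pi.sub_apply, Pi.smul_apply, regChar_one, smul_eq_mul]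
      rw [Nat.cast_mul, Nat.cast_sub Nat.card_pos]; push_cast; ring
    · simp [regChar_of_ne_one hn, he n n.2 fun e => hn (Subtype.ext e)]
  have h3 : classInner (fun n : N => χ n) μ = e := by
    rw [h2, classInner_sub_left, classInner_smul_left, classInner_smul_left, classInner_regChar_left,
      isIrrCharacter_one.inner_eq_zero hμ h1.symm, hμ1]
    simp
  have h4 := clifford_degree N h.irr hμ (h3 ▸ he0)
  rw [h3, hμ1, mul_one, hd, Nat.cast_mul] at h4
  exact_mod_cast (mul_left_cancel₀ he0 h4).symm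

theorem card_centralizer (h : Gagola χ N) [N.Normal] (hx : x ∉ N) :
    Nat.card (Subgroup.centralizer ({x} : Set G)) =
      Nat.card (Subgroup.centralizer ({(x : G ⧸ N)} : Set (G ⧸ N))) := by
  have := Fintype.sum_of_injective _ (inflateIrr_injective (QuotientGroup.mk' N) (QuotientGroup.mk'_surjective N))
    (fun ψ => ‖(ψ : G ⧸ N → ℂ) x‖ ^ 2) (fun ψ => ‖(ψ : G → ℂ) x‖ ^ 2) (fun ψ hψ => by
      have : (ψ : G → ℂ) = χ := by
        by_contra hne
        exact hψ ((mem_range_inflateIrr _ _ ψ).2 fun n hn => h.ker ψ.2 hne (by simpa using hn))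
      simp [this, h.zero hx]) (fun _ => rfl)
  rw [sum_irr_norm_sq, sum_irr_norm_sq] at this
  exact_mod_cast this.symm

theorem isConj_mul (h : Gagola χ N) (hx : x ∉ N) {n : G} (hn : n ∈ N) : IsConj x (x * n) := by
  refine (isConj_iff_irr _ _).2 fun ψ => ?_
  by_cases e : (ψ : G → ℂ) = χ
  · rw [e, h.zero hx, h.zero fun hm => hx ((N.mul_mem_cancel_right hn).1 hm)]
  · exact (apply_mul_of_mem_charKer ψ.2.isClassFunction ((mem_charKer_irr ψ).2 (h.ker ψ.2 e hn)) x).symm

theorem card_mul_dvd (h : Gagola χ N) {p : ℕ} [hp : Fact p.Prime] (hN : IsPGroup p N) (P : Sylow p G)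
    (hx : x ∉ N) {D : Subgroup G} (hD : IsPGroup p D) (hDx : D ≤ Subgroup.centralizer {x}) :
    Nat.card D * Nat.card N ∣ Nat.card P := by
  haveI := h.normal
  obtain ⟨a, ha⟩ := IsPGroup.iff_card.1 hD
  obtain ⟨b, hb⟩ := IsPGroup.iff_card.1 hN
  have h1 : Nat.card D * Nat.card N ∣ Nat.card G := by
    rw [Subgroup.card_eq_card_quotient_mul_card_subgroup N]
    refine Nat.mul_dvd_mul_right ((Subgroup.card_dvd_of_le hDx).trans ?_) _
    rw [h.card_centralizer hx]
    exact Subgroup.card_subgroup_dvd_card _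
  rw [ha, hb, ← pow_add] at h1 ⊢
  exact P.pow_dvd_card_of_pow_dvd_card h1

theorem center_le (h : Gagola χ N) {p : ℕ} [hp : Fact p.Prime] (hN : IsPGroup p N) (P : Sylow p G) :
    (Subgroup.center ↥(P : Subgroup G)).map (P : Subgroup G).subtype ≤ N := by
  rintro _ ⟨z, hz, rfl⟩
  by_contra hx
  have := h.card_mul_dvd hN P hx P.isPGroup' fun y hy =>
    Subgroup.mem_centralizer_singleton_iff.2 (congrArg Subtype.val (Subgroup.mem_center_iff.1 hz ⟨y, hy⟩))
  have h2 := Nat.le_of_dvd Nat.card_pos this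
  have h3 : 1 < Nat.card N := (Subgroup.one_lt_card_iff_ne_bot N).2 h.ne_bot
  have h4 : 0 < Nat.card (P : Subgroup G) := Nat.card_pos
  change Nat.card (P : Subgroup G) * _ ≤ Nat.card (P : Subgroup G) at h2
  nlinarith

theorem upper (h : Gagola χ N) {p : ℕ} [hp : Fact p.Prime] (hN : IsPGroup p N) (P : Sylow p G) :
    ∃ i : ℕ, Subgroup.upperCentralSeries ↥(P : Subgroup G) i = N.subgroupOf (P : Subgroup G) := by
  classical
  haveI := h.normal
  haveI := P.isPGroup'.isNilpotent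
  by_cases hex : ∃ j, ¬ Subgroup.upperCentralSeries ↥(P : Subgroup G) j ≤ N.subgroupOf (P : Subgroup G)
  · have h1 := Nat.find_spec hex
    obtain ⟨i, hi⟩ : ∃ i, Nat.find hex = i + 1 := Nat.exists_eq_succ_of_ne_zero fun e => h1 (by
      rw [e]; exact bot_le)
    have h2 := not_not.1 (Nat.find_min hex (m := i) (by omega))
    rw [hi] at h1
    obtain ⟨z, hz, hzN⟩ := SetLike.not_le_iff_exists.1 h1
    refine ⟨i, Subgroup.eq_of_le_of_card_ge h2 ?_⟩
    rw [Nat.card_congr (Subgroup.subgroupOfEquivOfLe (hN.le_sylow_of_normal P)).toEquiv]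
    set C := Subgroup.centralizer ({z} : Set (P : Subgroup G))
    have h3 := h.card_mul_dvd hN P hzN (D := C.map (P : Subgroup G).subtype)
      ((P.isPGroup'.to_subgroup C).map _) (by
        rintro _ ⟨y, hy, rfl⟩
        exact Subgroup.mem_centralizer_singleton_iff.2
          (congrArg Subtype.val (Subgroup.mem_centralizer_singleton_iff.1 hy)))
    rw [Subgroup.card_map_of_injective (Subgroup.subtype_injective _)] at h3
    have h4 : Nat.card C * Nat.card N ≤ Nat.card C * C.index := by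
      rw [C.card_mul_index]; exact Nat.le_of_dvd Nat.card_pos h3
    refine (Nat.le_of_mul_le_mul_left h4 Nat.card_pos).trans ?_
    refine Nat.card_le_card_of_injective (fun q : ↥(P : Subgroup G) ⧸ C =>
      (⟨z * q.out * z⁻¹ * q.out⁻¹, Subgroup.mem_upperCentralSeries_succ_iff.1 hz _⟩ :
        Subgroup.upperCentralSeries ↥(P : Subgroup G) i)) fun a b e => ?_
    have e' : z * a.out * z⁻¹ * a.out⁻¹ = z * b.out * z⁻¹ * b.out⁻¹ := congrArg Subtype.val e
    rw [← a.out_eq, ← b.out_eq]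
    refine Quotient.sound (QuotientGroup.leftRel_apply.2 (Subgroup.mem_centralizer_singleton_iff.2 ?_))
    simp only [mul_assoc, mul_right_inj] at e'
    calc a.out⁻¹ * b.out * z = z * a.out⁻¹ * (a.out * (z⁻¹ * a.out⁻¹)) * b.out * z := by group
      _ = _ := by rw [e']; group
  · push Not at hex
    exact ⟨_, le_antisymm (hex _) (by rw [Subgroup.upperCentralSeries_nilpotencyClass]; exact le_top)⟩

theorem fpf_of_compl (h : Gagola χ N) {H : Subgroup G} (hc : Subgroup.IsComplement' N H) :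
    ∀ z ∈ H, z ≠ 1 → N ⊓ Subgroup.centralizer {z} = ⊥ := by
  intro z hz hz1
  haveI := h.normal
  have hzN : z ∉ N := fun e => hz1 (Subgroup.disjoint_def.1 hc.disjoint e hz)
  let f : N → N := fun m => ⟨z⁻¹ * m * z * (m : G)⁻¹, N.mul_mem (h.normal.conj_mem' _ m.2 z) (N.inv_mem m.2)⟩
  have hf : Function.Surjective f := by
    intro n
    obtain ⟨g, hg⟩ := isConj_iff.1 (h.isConj_mul hzN n.2)
    obtain ⟨m, hm, k, hk, rfl⟩ := exists_mul_of_sup_eq_top hc.sup_eq_top g
    have h1 : z⁻¹ * (k * z * k⁻¹) = 1 := by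
      refine Subgroup.disjoint_def.1 hc.disjoint ?_
        (H.mul_mem (H.inv_mem hz) (H.mul_mem (H.mul_mem hk hz) (H.inv_mem hk)))
      have : z⁻¹ * (k * z * k⁻¹) = (z⁻¹ * m⁻¹ * z) * (z⁻¹ * ((m * k) * z * (m * k)⁻¹)) * m := by
        group
      rw [this, hg, inv_mul_cancel_left]
      exact N.mul_mem (N.mul_mem (h.normal.conj_mem' _ (N.inv_mem hm) z) n.2) hm
    refine ⟨⟨m, hm⟩, Subtype.ext ?_⟩
    calc z⁻¹ * m * z * m⁻¹ = z⁻¹ * m * (z * (z⁻¹ * (k * z * k⁻¹))) * m⁻¹ := by rw [h1, mul_one]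
      _ = z⁻¹ * ((m * k) * z * (m * k)⁻¹) := by group
      _ = n := by rw [hg, inv_mul_cancel_left]
  rw [eq_bot_iff]
  rintro m ⟨hm, hmz⟩
  have := Finite.injective_iff_surjective.2 hf (a₁ := ⟨m, hm⟩) (a₂ := 1) (Subtype.ext (by
    have := Subgroup.mem_centralizer_singleton_iff.1 hmz
    simp only [f, OneMemClass.coe_one]
    rw [mul_assoc z⁻¹, this]; group))
  exact congrArg Subtype.val this

theorem frobenius_of_compl (h : Gagola χ N) {H : Subgroup G} (hc : Subgroup.IsComplement' N H) :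
    IsFrobeniusComplement H ∧ frobeniusKernel H = (N : Set G) ∧ Nat.card H + 1 = Nat.card N := by
  haveI := h.normal
  obtain ⟨x, hx, hx1⟩ := h.exists_mem
  have hNC : N ≤ Subgroup.centralizer {x} := fun y hy =>
    Subgroup.mem_centralizer_singleton_iff.2 (h.comm y hy x hx)
  have ht := h.index_add_one hx hx1
  have hH : H ≠ ⊥ := by
    rintro rfl
    have h1 := hc.card_mul
    have h2 : N = ⊤ := by simpa using hc.sup_eq_top
    rw [show Subgroup.centralizer {x} = ⊤ from top_le_iff.1 (h2 ▸ hNC), Subgroup.index_top] at ht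
    rw [Subgroup.card_bot, mul_one] at h1
    have := h.card
    omega
  have hF := Solv.Frob.isFrobeniusComplement_of_fpf hc h.ne_bot hH (h.fpf_of_compl hc)
  refine ⟨hF, (Solv.Frob.coe_eq_frobeniusKernel hF hc).symm, ?_⟩
  rw [← ht, le_antisymm (Solv.Frob.centralizer_le_kernel hF hc hx hx1) hNC, hc.symm.index_eq_card]

theorem eq_one_of_comm (h : Gagola χ N) {p : ℕ} [hp : Fact p.Prime] (hN : IsPGroup p N) {y n : G}
    (hy : (orderOf y).Coprime p) (hn : n ∈ N) (hc : n * y = y * n) (hy1 : y ≠ 1) : n = 1 := by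
  by_contra h1
  obtain ⟨P, hP⟩ := h.centralizer_sylow hN hn h1
  obtain ⟨k, hk⟩ := P.isPGroup' ⟨y, hP ▸ Subgroup.mem_centralizer_singleton_iff.2 hc.symm⟩
  have h2 : orderOf y ∣ p ^ k := orderOf_dvd_of_pow_eq_one (congrArg Subtype.val hk)
  exact hy1 (orderOf_eq_one_iff.1 (Nat.Coprime.eq_one_of_dvd (hy.pow_right k) h2))

theorem exists_compl (h : Gagola χ N) {p : ℕ} [hp : Fact p.Prime] (hN : N = pCore p G) :
    ∃ H : Subgroup G, Subgroup.IsComplement' N H := by
  haveI := h.normal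
  have hNp : IsPGroup p N := hN ▸ Grp.pCore_isPGroup p G
  obtain ⟨x, hx, hx1⟩ := h.exists_mem
  have hC : Subgroup.centralizer (N : Set G) ≤ N := by
    obtain ⟨P, hP⟩ := h.centralizer_sylow hNp hx hx1
    conv_rhs => rw [hN]
    exact Grp.le_pCore inferInstance (P.isPGroup'.to_le
      (hP ▸ Subgroup.centralizer_le (Set.singleton_subset_iff.2 hx)))
  by_cases h2 : p = 2
  · subst h2
    obtain ⟨a, ha⟩ := IsPGroup.iff_card.1 hNp
    refine Subgroup.exists_right_complement'_of_coprime ?_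
    rw [ha]
    refine Nat.Coprime.pow_left _ ((Nat.Prime.coprime_iff_not_dvd Nat.prime_two).2 fun hd => ?_)
    obtain ⟨z, hz⟩ := exists_prime_orderOf_dvd_card' (G := G ⧸ N) 2 hd
    have hb : pCore 2 (G ⧸ N) = ⊥ := by subst hN; exact Grp.pCore_quotient_pCore 2 G
    obtain ⟨y, hy1, hyo, hzy⟩ := Inv.exists_odd_inverted_of_not_mem_pCore hz
      (by rw [hb]; exact Inv.ne_one_of_orderOf_two hz)
    obtain ⟨z, rfl⟩ := QuotientGroup.mk_surjective z
    obtain ⟨y, rfl⟩ := QuotientGroup.mk_surjective y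
    have hy : ∀ k ∈ N, k * y⁻¹ = y⁻¹ * k → k = 1 := by
      intro k hk hc
      by_contra h1
      obtain ⟨P, hP⟩ := h.centralizer_sylow hNp hk h1
      obtain ⟨j, hj⟩ := P.isPGroup' ⟨y, hP ▸ (Subgroup.inv_mem_iff _).1
        (Subgroup.mem_centralizer_singleton_iff.2 hc.symm)⟩
      have h3 : orderOf (y : G ⧸ N) ∣ 2 ^ j := orderOf_dvd_of_pow_eq_one (by
        rw [← QuotientGroup.mk_pow, show y ^ 2 ^ j = 1 from congrArg Subtype.val hj]; rfl)
      exact hy1 (orderOf_eq_one_iff.1 (Nat.Coprime.eq_one_of_dvd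
        ((Nat.coprime_two_right.2 hyo).pow_right j) h3))
    have h3 : y⁻¹⁻¹ * (z * y * z⁻¹) ∈ N := QuotientGroup.eq.1 hzy.symm
    obtain ⟨m, hm, e⟩ := exists_conj_eq_mul_of_fpf N hy h3
    rw [mul_inv_cancel_left] at e
    set u := m⁻¹ * z with hu
    have huz : (u : G ⧸ N) = z := by
      rw [hu, QuotientGroup.mk_mul, (QuotientGroup.eq_one_iff _).2 (N.inv_mem hm), one_mul]
    have huy : u * y * u⁻¹ = y⁻¹ := by
      calc u * y * u⁻¹ = m⁻¹ * (z * y * z⁻¹) * m := by rw [hu]; group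
        _ = y⁻¹ := by rw [← e]; group
    have huN : u ∉ N := fun hm => Inv.ne_one_of_orderOf_two hz (huz ▸ (QuotientGroup.eq_one_iff _).2 hm)
    have hu2 : u * u = 1 := by
      refine hy _ ((QuotientGroup.eq_one_iff _).1 ?_) ?_
      · rw [QuotientGroup.mk_mul, huz, Inv.mul_self_of_orderOf_two hz]
      · calc u * u * y⁻¹ = u * (u * y * u⁻¹)⁻¹ * u := by group
          _ = u * y * u := by rw [huy, inv_inv]
          _ = (u * y * u⁻¹) * (u * u) := by group
          _ = _ := by rw [huy]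
    obtain ⟨q, hq, hqN⟩ := h.exists_prime
    obtain rfl : q = 2 := by
      haveI := Fact.mk hq
      obtain ⟨j, hj⟩ := hNp ⟨x, hx⟩
      have h4 := orderOf_dvd_of_pow_eq_one (show x ^ 2 ^ j = 1 from congrArg Subtype.val hj)
      rw [orderOf_eq_prime (hqN x hx) hx1] at h4
      exact (Nat.prime_dvd_prime_iff_eq hq Nat.prime_two).1 (hq.dvd_of_dvd_pow h4)
    refine huN (hC (Subgroup.mem_centralizer_iff.2 fun n hn => ?_))
    obtain ⟨g, hg⟩ := isConj_iff.1 (h.isConj_mul huN hn)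
    have h5 : u * n * (u * n) = 1 := by
      calc u * n * (u * n) = g * (u * u) * g⁻¹ := by rw [← hg]; group
        _ = 1 := by rw [hu2]; group
    have h6 : n * n = 1 := by rw [← sq]; exact hqN n hn
    calc n * u = (u * u) * n * u * (n * n) := by rw [hu2, h6]; group
      _ = u * (u * n * (u * n)) * n := by group
      _ = u * n := by rw [h5, mul_one]
  · obtain ⟨k, hk⟩ := h.exists_pow hNp
    obtain ⟨a, ha⟩ := IsPGroup.iff_card.1 hNp
    have h3 : 2 ∣ Nat.card G := by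
      rw [hk, ha]
      exact (even_iff_two_dvd.1 (Nat.Odd.sub_odd ((hp.out.odd_of_ne_two h2).pow) odd_one)).mul_left _
    obtain ⟨u, hu⟩ := exists_prime_orderOf_dvd_card' (G := G) 2 h3
    have hf : ∀ s : G, orderOf s = 2 → ∀ k ∈ N, k * s = s * k → k = 1 := fun s hs k hk hc =>
      h.eq_one_of_comm hNp (hs ▸ (Nat.coprime_primes Nat.prime_two hp.out).2 (Ne.symm h2)) hk hc
        (Inv.ne_one_of_orderOf_two hs)
    have hi : ∀ s : G, orderOf s = 2 → ∀ k ∈ N, s * k * s⁻¹ = k⁻¹ := fun s hs k hk =>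
      conj_eq_inv_of_fixedPointFree (Inv.mul_self_of_orderOf_two hs)
        (by rw [Subgroup.normalizer_eq_top]; trivial) (fun y hy hc => hf s hs y hy hc.symm) hk
    refine ⟨Subgroup.centralizer {u}, Subgroup.isComplement'_of_disjoint_and_mul_eq_univ
      (Subgroup.disjoint_def.2 fun hn hc => hf u hu _ hn (Subgroup.mem_centralizer_singleton_iff.1 hc))
      (Set.eq_univ_of_forall fun g => ?_)⟩
    have h4 := hC (mul_mem_centralizer_of_inverted (hi u hu) (hi (g * u * g⁻¹) (by rw [Inv.orderOf_conj, hu])))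
    obtain ⟨m, hm, e⟩ := exists_conj_eq_mul_of_fpf N (hf u hu) h4
    rw [← mul_assoc, Inv.mul_self_of_orderOf_two hu, one_mul] at e
    refine ⟨m, hm, m⁻¹ * g, Subgroup.mem_centralizer_singleton_iff.2 ?_, by simp⟩
    calc m⁻¹ * g * u = m⁻¹ * (g * u * g⁻¹) * g := by group
      _ = _ := by rw [← e]; group

end Gagola

end Cfsg.Agent.Char
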