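import Mathlib
import Cfsg.Agent.Char.Clifford
import Cfsg.Agent.Char.Degrees
import Cfsg.Agent.Char.Linear
import Cfsg.Agent.Grp.MinNormal

/-!
# Non-vanishing elements (helper13)

`NV g`: no irreducible character vanishes at `g`.  Passes to quotients, is central in nilpotent
groups, fixes a point of every orbit of characters of a normal subgroup.  Regular orbits of abelian
coprime groups on the dual group.
-/

set_option autoImplicit false
set_option linter.style.haveILetI false
set_option linter.unusedSectionVars false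
open Cfsg Subgroup
open scoped commutatorElement

namespace Cfsg.Agent.Char
open Cfsg.Agent.Char

universe u

variable {G : Type*} [Group G]

/-- `g` is non-vanishing. -/
def NV (g : G) : Prop := ∀ χ : IrrCharacter G, χ.1 g ≠ 0

theorem NV.map {Q : Type*} [Group Q] (f : G →* Q) (hf : Function.Surjective f) {g : G} (h : NV g) :
    NV (f g) := fun χ => h (inflateIrr f hf χ)

theorem NV.conj {g : G} (h : NV g) (x : G) : NV (x * g * x⁻¹) := fun χ => by
  rw [χ.2.isClassFunction g x]; exact h χ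

theorem apply_mul_center [Finite G] (χ : IrrCharacter G) {z : G} (hz : z ∈ center G) :
    ∃ ω : ℂ, ‖ω‖ = 1 ∧ ∀ h, χ.1 (z * h) = ω * χ.1 h :=
  (isCharacter_norm_eq_iff χ.2.isCharacter z).1 (norm_eq_of_mem_center χ.2 hz)

theorem nv_of_mem_center [Finite G] {z : G} (hz : z ∈ center G) : NV z := fun χ h => by
  have := norm_eq_of_mem_center χ.2 hz
  rw [h, norm_zero, eq_comm, norm_eq_zero] at this
  exact χ.2.one_ne_zero this

theorem NV.of_mul_center [Finite G] {z g : G} (hz : z ∈ center G) (h : NV (z * g)) : NV g :=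
  fun χ e => by
    obtain ⟨ω, -, h1⟩ := apply_mul_center χ hz
    exact h χ (by rw [h1, e, mul_zero])

theorem NV.comm_eq_one [Finite G] {g x : G} (h : NV g) (hc : ⁅x, g⁆ ∈ center G) : ⁅x, g⁆ = 1 := by
  refine eq_one_of_forall_irr fun χ => ?_
  obtain ⟨ω, -, h1⟩ := apply_mul_center χ hc
  have h2 := h1 g
  rw [show ⁅x, g⁆ * g = x * g * x⁻¹ by simp [commutatorElement_def], χ.2.isClassFunction g x] at h2
  have h3 : ω = 1 := mul_right_cancel₀ (h χ) (by rw [← h2, one_mul])
  simpa [h3] using h1 1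

theorem NV.mem_center_aux (G : Type u) [Group G] [Finite G] :
    Group.IsNilpotent G → ∀ g : G, NV g → g ∈ center G := by
  refine Grp.card_induction (P := fun G _ _ => Group.IsNilpotent G → ∀ g : G, NV g → g ∈ center G)
    ?_ G
  intro G _ _ ih hG g h
  rcases subsingleton_or_nontrivial G with hs | hs
  · rw [Subsingleton.elim g 1]; exact one_mem _
  have h1 := ih (G ⧸ center G) (Grp.card_quotient_lt _ (Group.IsNilpotent.center_ne_bot G))
    inferInstance _ (h.map (QuotientGroup.mk' _) (QuotientGroup.mk'_surjective _))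
  refine mem_center_iff.2 fun x => commutatorElement_eq_one_iff_mul_comm.1 (h.comm_eq_one ?_)
  rw [← QuotientGroup.eq_one_iff, ← QuotientGroup.mk'_apply, map_commutatorElement,
    commutatorElement_eq_one_iff_mul_comm]
  exact mem_center_iff.1 h1 _

/-- A non-vanishing element of a nilpotent group is central. -/
theorem NV.mem_center [Finite G] [hG : Group.IsNilpotent G] {g : G} (h : NV g) : g ∈ center G :=
  NV.mem_center_aux G hG g h

theorem NV.comm_mem [Finite G] (K : Subgroup G) [K.Normal] (hK : Group.IsNilpotent (G ⧸ K)) {g : G}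
    (h : NV g) (x : G) : ⁅x, g⁆ ∈ K := by
  rw [← QuotientGroup.eq_one_iff, ← QuotientGroup.mk'_apply, map_commutatorElement,
    commutatorElement_eq_one_iff_mul_comm]
  exact mem_center_iff.1 (h.map (QuotientGroup.mk' _) (QuotientGroup.mk'_surjective _)).mem_center _

/-- A non-vanishing element fixes a member of each orbit on `Irr N`. -/
theorem NV.exists_mem_inertia [Finite G] (N : Subgroup G) [N.Normal] {θ : N → ℂ}
    (hθ : IsIrrCharacter N θ) {g : G} (h : NV g) : ∃ x : G, x * g * x⁻¹ ∈ inertia N θ := by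
  letI : Fintype G := Fintype.ofFinite G
  letI : Fintype N := Fintype.ofFinite N
  letI : Fintype (inertia N θ) := Fintype.ofFinite _
  obtain ⟨χ, hχ, h1⟩ := exists_irr_over N hθ
  obtain ⟨ψ, -, rfl, -⟩ := exists_clifford_corr (le_inertia N hθ.isClassFunction) hθ le_rfl hχ h1
  by_contra hc
  exact h ⟨_, hχ⟩ (indFun_eq_zero _ _ _ fun x hx => (hc ⟨x, hx⟩).elim)

/-- A non-vanishing element centralizes a nontrivial element of each nontrivial normal subgroup. -/
theorem NV.inf_centralizer_ne_bot [Finite G] (N : Subgroup G) [hN : N.Normal] (h1 : N ≠ ⊥) {g : G}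
    (h : NV g) : N ⊓ centralizer {g} ≠ ⊥ := by
  letI : Fintype N := Fintype.ofFinite N
  intro hc
  obtain ⟨n, hn, hn1⟩ := (Subgroup.bot_or_exists_ne_one N).resolve_left h1
  obtain ⟨χ, hχ⟩ : ∃ χ : IrrCharacter G, χ.1 n ≠ χ.1 1 :=
    not_forall.1 fun a => hn1 (eq_one_of_forall_irr a)
  have h2 := sum_coset_eq_zero χ.2 N ⟨n, hn, hχ⟩ g
  let φ : N → N := fun v => ⟨g⁻¹ * v * g * (v : G)⁻¹,
    mul_mem (by simpa using hN.conj_mem v v.2 g⁻¹) (inv_mem v.2)⟩
  have h3 : Function.Injective φ := fun v w e => by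
    have e' : g⁻¹ * v * g * (v : G)⁻¹ = g⁻¹ * w * g * (w : G)⁻¹ := congrArg Subtype.val e
    have : ((w : G)⁻¹ * v) ∈ N ⊓ centralizer {g} := ⟨N.mul_mem (N.inv_mem w.2) v.2,
      mem_centralizer_singleton_iff.2 (by
        calc (w : G)⁻¹ * v * g = (w : G)⁻¹ * g * (g⁻¹ * v * g * (v : G)⁻¹) * v := by group
          _ = _ := by rw [e']; group)⟩
    rw [hc, mem_bot, inv_mul_eq_one] at this
    exact Subtype.ext this.symm
  rw [← (Finite.injective_iff_bijective.1 h3).sum_comp, Finset.sum_congr rfl (g := fun _ => χ.1 g)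
    fun v _ => by
      rw [← χ.2.isClassFunction g v]; simp only [φ]; group] at h2
  simp only [Finset.sum_const, nsmul_eq_mul, mul_eq_zero, Nat.cast_eq_zero, Finset.card_eq_zero,
    Finset.univ_eq_empty_iff, not_isEmpty_of_nonempty, false_or] at h2
  exact h χ h2

section Regular
variable {V : Type*} [CommGroup V] [Finite V]

theorem hom_eq_one_of_inv {b : MulAut V} (hb : (orderOf b).Coprime (Nat.card V)) (ν : V →* ℂˣ)
    (h1 : ∀ v, ν (b v) = ν v) (h2 : ∀ v, b v = v → ν v = 1) : ν = 1 := by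
  ext1 v
  have h3 : ∀ i : ℕ, ν ((b ^ i) v) = ν v := fun i => by
    induction i with
    | zero => rfl
    | succ i ih => rw [pow_succ', MulAut.mul_apply, h1, ih]
  have h4 : b (∏ i ∈ Finset.range (orderOf b), (b ^ i) v) =
      ∏ i ∈ Finset.range (orderOf b), (b ^ i) v := by
    have h5 := Finset.prod_range_succ' (fun i => (b ^ i) v) (orderOf b)
    rw [Finset.prod_range_succ, pow_orderOf_eq_one, pow_zero] at h5
    rw [map_prod, mul_right_cancel h5]
    exact Finset.prod_congr rfl fun i _ => by rw [pow_succ', MulAut.mul_apply]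
  have h6 := h2 _ h4
  rw [map_prod, Finset.prod_congr rfl fun i _ => h3 i, Finset.prod_const, Finset.card_range] at h6
  have h7 : ν v ^ Nat.card V = 1 := by rw [← map_pow, pow_card_eq_one', map_one]
  exact (pow_eq_one_iff_of_coprime hb).1 ⟨h6, h7⟩

/-- An abelian coprime group of automorphisms has a regular orbit on the dual group. -/
theorem exists_regular_hom (A : Subgroup (MulAut V)) (hA : ∀ a ∈ A, ∀ b ∈ A, a * b = b * a)
    (hc : ∀ a ∈ A, (orderOf a).Coprime (Nat.card V)) :
    ∃ l : V →* ℂˣ, ∀ a ∈ A, (∀ v, l (a v) = l v) → a = 1 := by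
  let B : (V →* ℂˣ) → Set (MulAut V) := fun l => {a | a ∈ A ∧ ∀ v, l (a v) = l v}
  obtain ⟨_, ⟨l, rfl⟩, hmin⟩ := (wellFounded_lt (α := Set (MulAut V))).has_min (Set.range B)
    ⟨_, 1, rfl⟩
  refine ⟨l, fun b hb hl => by_contra fun h1 => ?_⟩
  let F : Subgroup V := b.toMonoidHom.eqLocus (MonoidHom.id V)
  obtain ⟨v₀, hv₀⟩ : ∃ v, b v ≠ v := not_forall.1 fun h => h1 (MulEquiv.ext h)
  haveI : NeZero ((Monoid.exponent (V ⧸ F) : ℕ) : ℂ) :=
    ⟨Nat.cast_ne_zero.2 Monoid.exponent_ne_zero_of_finite⟩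
  obtain ⟨φ, hφ⟩ := CommGroup.exists_apply_ne_one_of_hasEnoughRootsOfUnity (V ⧸ F) ℂ
    (a := (v₀ : V ⧸ F)) fun h => hv₀ ((QuotientGroup.eq_one_iff v₀).1 h)
  let μ : V →* ℂˣ := φ.comp (QuotientGroup.mk' F)
  have hμ : ∀ v, b v = v → μ v = 1 := fun v hv => by
    have : (v : V ⧸ F) = 1 := (QuotientGroup.eq_one_iff v).2 hv
    simp [μ, this]
  refine hmin _ ⟨l * μ, rfl⟩ ⟨fun a ⟨ha, h2⟩ => ⟨ha, fun v => ?_⟩, fun h2 => hφ ?_⟩
  · have hab : ∀ v, a (b v) = b (a v) := fun v => by
      rw [← MulAut.mul_apply, hA a ha b hb, MulAut.mul_apply]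
    have := hom_eq_one_of_inv (hc b hb) (l.comp a.toMonoidHom * l⁻¹)
      (fun v => by simp [hab, hl]) fun v hv => by
        have h3 := h2 v
        rw [MonoidHom.mul_apply, MonoidHom.mul_apply, hμ v hv, hμ _ (by rw [← hab, hv])] at h3
        simpa [mul_inv_eq_one] using h3
    simpa [mul_inv_eq_one] using DFunLike.congr_fun this v
  · have h3 := (h2 (show b ∈ B l from ⟨hb, hl⟩)).2
    have := hom_eq_one_of_inv (hc b hb) μ (fun v => by
      have h4 := h3 v
      rw [MonoidHom.mul_apply, MonoidHom.mul_apply, hl] at h4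
      exact mul_left_cancel h4) hμ
    exact DFunLike.congr_fun this v₀

end Regular

/-- A normal subgroup acting as a `q`-group on a minimal normal `q`-subgroup centralizes it. -/
theorem le_centralizer_of_pow_mem [Finite G] {q : ℕ} (hq : q.Prime) (V : Subgroup G) [V.Normal]
    (h1 : V ≠ ⊥) (hV : IsPGroup q V) (hmin : ∀ M : Subgroup G, M.Normal → M ≤ V → M = ⊥ ∨ M = V)
    (S : Subgroup G) [S.Normal] (hS : ∀ s ∈ S, s ^ q ∈ centralizer (V : Set G)) :
    S ≤ centralizer (V : Set G) := by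
  haveI := Fact.mk hq
  let φ : G →* MulAut V := MulAut.conjNormal
  have h2 : IsPGroup q (S.map φ) := by
    rintro ⟨_, s, hs, rfl⟩
    refine ⟨1, Subtype.ext (MulEquiv.ext fun v => Subtype.ext ?_)⟩
    have := mem_centralizer_iff.1 (hS s hs) v v.2
    change (((φ s ^ q ^ 1) v : V) : G) = v
    rw [pow_one, ← map_pow, MulAut.conjNormal_apply, ← this, mul_inv_cancel_right]
  have h3 : q ∣ Nat.card V := by
    obtain ⟨k, hk⟩ := hV.exists_card_eq
    rw [hk]
    refine dvd_pow_self q fun h => h1 ?_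
    rwa [h, pow_zero, card_eq_one] at hk
  obtain ⟨v, hv, hv1⟩ := h2.exists_fixed_point_of_prime_dvd_card_of_fixed_point V h3 (a := 1)
    fun a => smul_one a
  rw [le_centralizer_iff]
  refine inf_eq_left.1 ((hmin (V ⊓ centralizer (S : Set G)) inferInstance inf_le_left).resolve_left
    fun h => hv1 (Subtype.ext (Eq.symm ?_)))
  refine mem_bot.1 (h ▸ ⟨v.2, mem_centralizer_iff.2 fun s hs => ?_⟩)
  have := congrArg Subtype.val (hv ⟨φ s, s, hs, rfl⟩)
  exact mul_inv_eq_iff_eq_mul.1 this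

/-- If all elements of a solvable normal subgroup `K` are non-vanishing, `K` centralizes every
abelian minimal normal subgroup. -/
theorem le_centralizer_of_nv [Finite G] {q : ℕ} (hq : q.Prime) (V : Subgroup G) [V.Normal]
    [IsMulCommutative V] (h1 : V ≠ ⊥) (hV : IsPGroup q V)
    (hmin : ∀ M : Subgroup G, M.Normal → M ≤ V → M = ⊥ ∨ M = V)
    (K : Subgroup G) [hK : K.Normal] [Group.IsSolvable K] (h : ∀ k ∈ K, NV k) :
    K ≤ centralizer (V : Set G) := by
  haveI := Fact.mk hq
  by_contra hc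
  obtain ⟨A, ⟨hA, hAK, hAC⟩, hm⟩ := (wellFounded_lt (α := Subgroup G)).has_min
    {A | A.Normal ∧ A ≤ K ∧ ¬ A ≤ centralizer (V : Set G)} ⟨K, hK, le_rfl, hc⟩
  let φ : G →* MulAut V := MulAut.conjNormal
  have hφ : ∀ g, φ g = 1 ↔ g ∈ centralizer (V : Set G) := fun g =>
    ⟨fun e => mem_centralizer_iff.2 fun v hv => (mul_inv_eq_iff_eq_mul.1
      (show g * v * g⁻¹ = v from congrArg Subtype.val (DFunLike.congr_fun e (⟨v, hv⟩ : V)))).symm,
    fun e => MulEquiv.ext fun v => Subtype.ext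
      (mul_inv_eq_iff_eq_mul.2 (mem_centralizer_iff.1 e v v.2).symm)⟩
  have h2 : ⁅A, A⁆ ≤ centralizer (V : Set G) := by
    by_contra h2
    haveI : Group.IsSolvable A := Group.isSolvable_of_isSolvable_injective (inclusion_injective hAK)
    refine hm _ ⟨inferInstance, (commutator_le_left A A).trans hAK, h2⟩ ?_
    rw [← map_subtype_commutator]
    haveI : Nontrivial A := (nontrivial_iff_ne_bot A).2 fun e => hAC (e ▸ bot_le)
    conv_rhs => rw [← range_subtype A, MonoidHom.range_eq_map]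
    exact (map_lt_map_iff_of_injective A.subtype_injective).2
      (Group.IsSolvable.commutator_lt_top_of_nontrivial A)
  have h3 : ∀ a ∈ A, ∀ b ∈ A, φ a * φ b = φ b * φ a := fun a ha b hb => by
    rw [← commutatorElement_eq_one_iff_mul_comm, ← map_commutatorElement, hφ]
    exact h2 (commutator_mem_commutator ha hb)
  let S : Subgroup G :=
    { carrier := {a | a ∈ A ∧ φ a ^ q = 1}
      one_mem' := ⟨one_mem _, by simp⟩
      mul_mem' := fun {a b} ha hb => ⟨mul_mem ha.1 hb.1, by
        rw [map_mul, Commute.mul_pow (h3 a ha.1 b hb.1), ha.2, hb.2, mul_one]⟩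
      inv_mem' := fun {a} ha => ⟨inv_mem ha.1, by rw [map_inv, inv_pow, ha.2, inv_one]⟩ }
  haveI : S.Normal := ⟨fun a ha g => ⟨hA.conj_mem a ha.1 g, by
    rw [map_mul, map_mul, map_inv, conj_pow, ha.2, mul_one, mul_inv_cancel]⟩⟩
  have h4 := le_centralizer_of_pow_mem hq V h1 hV hmin S fun s hs => by
    rw [← hφ, map_pow]; exact hs.2
  letI : CommGroup V := { (inferInstance : Group V) with mul_comm := fun a b => mul_comm' a b }
  obtain ⟨l, hl⟩ := exists_regular_hom (A.map φ)
    (by rintro _ ⟨a, ha, rfl⟩ _ ⟨b, hb, rfl⟩; exact h3 a ha b hb) (by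
      rintro _ ⟨a, ha, rfl⟩
      obtain ⟨k, hk⟩ := hV.exists_card_eq
      rw [hk]
      refine (hq.coprime_iff_not_dvd.2 fun ⟨m, hm⟩ => ?_).symm.pow_right k
      have h5 : φ a ^ m = 1 := by
        rw [← map_pow, hφ]
        refine h4 ⟨pow_mem ha m, ?_⟩
        rw [map_pow, ← pow_mul, mul_comm, ← hm, pow_orderOf_eq_one]
      have h6 := orderOf_pos (φ a)
      have h7 := Nat.le_of_dvd (Nat.pos_of_mul_pos_left (hm ▸ h6)) (orderOf_dvd_of_pow_eq_one h5)
      have := hq.two_le
      nlinarith)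
  refine hAC fun a ha => ?_
  obtain ⟨x, hx⟩ := (h a (hAK ha)).exists_mem_inertia V (isIrrCharacter_hom l)
  have h5 := (hφ _).1 (hl _ ⟨_, hA.conj_mem a ha x, rfl⟩ fun v =>
    Units.ext ((mem_inertia' V).1 hx v))
  simpa [mul_assoc] using (inferInstance : (centralizer (V : Set G)).Normal).conj_mem _ h5 x⁻¹

theorem centralizer_of_nv_aux (G : Type u) [Group G] [Finite G] :
    ∀ (K : Subgroup G) [K.Normal] [Group.IsSolvable K], (∀ k ∈ K, NV k) → ∀ g : G, NV g →
      (∀ x : G, ⁅x, g⁆ ∈ K) → ∀ n : ℕ, (orderOf (g ^ n)).Coprime (Nat.card K) →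
        g ^ n ∈ centralizer (K : Set G) := by
  refine Grp.card_induction (P := fun G _ _ => ∀ (K : Subgroup G) [K.Normal] [Group.IsSolvable K],
    (∀ k ∈ K, NV k) → ∀ g : G, NV g → (∀ x : G, ⁅x, g⁆ ∈ K) → ∀ n : ℕ,
      (orderOf (g ^ n)).Coprime (Nat.card K) → g ^ n ∈ centralizer (K : Set G)) ?_ G
  intro G _ _ ih K _ _ hK g hg hc n hn
  by_cases h0 : K = ⊥
  · subst h0; exact mem_centralizer_iff.2 fun k hk => by simp [mem_bot.1 hk]
  obtain ⟨q, V, hq, hVn, h1, hVK, hVc, -, hV, hmin⟩ :=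
    Grp.exists_minNormal_elementaryAbelian_le K h0
  have h2 := le_centralizer_of_nv hq V h1 hV hmin K hK
  have h3 : (V ⊓ centralizer {g}).Normal := ⟨fun v hv x => ⟨hVn.conj_mem v hv.1 x,
    mem_centralizer_singleton_iff.2 (by
      have e1 := mem_centralizer_singleton_iff.1 hv.2
      have e2 := mem_centralizer_iff.1 (h2 (hc x⁻¹)) v hv.1
      calc x * v * x⁻¹ * g = x * (v * ⁅x⁻¹, g⁆) * g * x⁻¹ := by
            simp only [commutatorElement_def]; group
        _ = x * ⁅x⁻¹, g⁆ * (v * g) * x⁻¹ := by rw [e2]; group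
        _ = _ := by rw [e1]; simp only [commutatorElement_def]; group)⟩⟩
  have h4 : V ≤ centralizer {g} := inf_eq_left.1
    ((hmin _ h3 inf_le_left).resolve_left (hg.inf_centralizer_ne_bot V h1))
  let f := QuotientGroup.mk' V
  have hf : Function.Surjective f := QuotientGroup.mk'_surjective V
  haveI : (K.map f).Normal := Normal.map inferInstance f hf
  haveI : Group.IsSolvable (K.map f) := Group.isSolvable_of_surjective (f.subgroupMap_surjective K)
  have h5 := ih (G ⧸ V) (Grp.card_quotient_lt V h1) (K.map f)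
    (by rintro _ ⟨k, hk, rfl⟩; exact (hK k hk).map f hf) _ (hg.map f hf)
    (fun x => by obtain ⟨x, rfl⟩ := hf x; exact ⟨_, hc x, map_commutatorElement f x g⟩) n
    ((hn.coprime_dvd_left (map_pow f g n ▸ orderOf_map_dvd f _)).coprime_dvd_right
      (card_map_dvd K f))
  refine mem_centralizer_iff.2 fun k hk => ?_
  set y := g ^ n with hy
  have h6 : ⁅y, k⁆ ∈ V := by
    rw [← QuotientGroup.eq_one_iff, ← QuotientGroup.mk'_apply, map_commutatorElement,
      commutatorElement_eq_one_iff_mul_comm, hy, map_pow]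
    exact (mem_centralizer_iff.1 h5 _ ⟨k, hk, rfl⟩).symm
  have h7 : Commute y ⁅y, k⁆ :=
    (show Commute ⁅y, k⁆ g from mem_centralizer_singleton_iff.1 (h4 h6)).symm.pow_left n
  have h8 : ∀ i : ℕ, y ^ i * k = ⁅y, k⁆ ^ i * k * y ^ i := fun i => by
    induction i with
    | zero => simp
    | succ i ih =>
      calc y ^ (i + 1) * k = y * (y ^ i * k) := by rw [pow_succ', mul_assoc]
        _ = ⁅y, k⁆ ^ i * (⁅y, k⁆ * k * y) * y ^ i := by
          rw [ih, ← mul_assoc, ← mul_assoc, (h7.pow_right i).eq]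
          simp only [commutatorElement_def]; group
        _ = _ := by rw [pow_succ, pow_succ']; simp only [mul_assoc]
  have h9 := h8 (orderOf y)
  rw [pow_orderOf_eq_one, one_mul, mul_one, right_eq_mul] at h9
  have h10 : ⁅y, k⁆ ^ Nat.card K = 1 :=
    congrArg Subtype.val (pow_card_eq_one' (x := (⟨_, hVK h6⟩ : K)))
  exact (commutatorElement_eq_one_iff_mul_comm.1
    ((pow_eq_one_iff_of_coprime hn).1 ⟨h9, h10⟩)).symm

/-- `K` solvable normal with non-vanishing elements, `g` non-vanishing and central modulo `K`: the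
powers of `g` of order prime to `|K|` centralize `K`. -/
theorem NV.pow_mem_centralizer [Finite G] (K : Subgroup G) [K.Normal] [Group.IsSolvable K]
    (hK : ∀ k ∈ K, NV k) {g : G} (hg : NV g) (hc : ∀ x : G, ⁅x, g⁆ ∈ K) {n : ℕ}
    (hn : (orderOf (g ^ n)).Coprime (Nat.card K)) : g ^ n ∈ centralizer (K : Set G) :=
  centralizer_of_nv_aux G K hK g hg hc n hn

end Cfsg.Agent.Char
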