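import Mathlib
import Cfsg.Agent.Char.AvgFix
import Cfsg.Agent.Char.FullyRam
import Cfsg.Agent.Char.AmbExt
import Cfsg.Agent.Char.GoingDown
import Cfsg.Agent.Char.PPrimeDeg
import Cfsg.Agent.Char.Degrees
import Cfsg.Agent.Solv.FrattiniNormal

/-! Degrees of primitive characters of solvable groups and class sizes. -/

set_option autoImplicit false

open Cfsg Subgroup Cfsg.Agent.Char Cfsg.Agent.Char.FullyRam

namespace Cfsg.Agent.Char.AvgFix

variable {G : Type*} [Group G] [Fintype G]

theorem invBy_of_prim {χ : IrrCharacter G}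
    (hχ : ¬ ∃ H : Subgroup G, H ≠ ⊤ ∧ ∃ θ : H → ℂ, IsCharacter H θ ∧ indFun H θ = χ.1)
    (L : Subgroup G) [L.Normal] {φ : IrrCharacter L} (h : mult χ φ ≠ 0) : InvBy ⊤ φ.1 := by
  have := Fintype.ofFinite L
  obtain ⟨θ, e, hθ, he⟩ : ∃ (θ : L → ℂ) (e : ℕ), IsIrrCharacter L θ ∧
      (fun n : L => χ.1 n) = (e : ℂ) • θ := by
    by_contra h1
    obtain ⟨T, ψ, h2, -, h3, h4⟩ := exists_indFun_eq_of_not_homogeneous L χ.2 h1
    exact hχ ⟨T, h2, ψ, h3.isCharacter, h4⟩
  rw [mult_ne_zero_iff, he, classInner_smul_left] at h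
  obtain rfl : θ = φ.1 := by
    by_contra h1
    exact right_ne_zero_of_mul h (hθ.inner_eq_zero φ.2 h1)
  intro s _ g g' hg
  refine mul_left_cancel₀ (left_ne_zero_of_mul h) ?_
  exact (congrFun he g').symm.trans ((hg ▸ χ.2.isClassFunction _ _ :).trans (congrFun he g))

theorem exists_phi [Group.IsSolvable G] {χ : IrrCharacter G}
    (hχ : ¬ ∃ H : Subgroup G, H ≠ ⊤ ∧ ∃ θ : H → ℂ, IsCharacter H θ ∧ indFun H θ = χ.1)
    (p : ℕ) [hp : Fact p.Prime] (M : Subgroup G) [M.Normal]
    (hM : ∀ x ∈ M, ∃ k, x ^ p ^ k ∈ fittingSubgroup G) (K : Subgroup G) : K.Normal →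
      ∀ θ : IrrCharacter K, mult χ θ ≠ 0 → ∃ Φ : G → ℕ,
      (∀ g, (Nat.card (K ⊓ centralizer {g} : Subgroup G)).factorization p ≤ Φ g) ∧
      ∑ g, (Φ g + (charDegree θ.1).factorization p) ≤
        Nat.card G * (Nat.card K).factorization p ∧ ∀ g, ∀ x ∈ M, Φ (g * x) = Φ g := by
  induction K using WellFoundedLT.induction with
  | _ K ih =>
  intro hK θ hθ
  rcases eq_or_ne K ⊥ with rfl | hK1
  · refine ⟨0, by simp, ?_, by simp⟩
    have : charDegree θ.1 = 1 := Nat.dvd_one.1 (by simpa using charDegree_irr_dvd_card θ)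
    simp [this]
  obtain ⟨L, h1, ⟨hL, hLK⟩, hmax⟩ := Finite.exists_le_maximal (a := ⁅K, K⁆)
    (p := fun L : Subgroup G => L.Normal ∧ L < K)
    ⟨inferInstance, Group.IsSolvable.commutator_lt_of_ne_bot hK1⟩
  obtain ⟨φ, hφ⟩ := exists_nmult_ne_zero_below hLK.le θ
  obtain ⟨Φ, h2, h3, h4⟩ := ih L hLK hL φ (mult_trans χ hLK.le θ φ hθ hφ)
  obtain ⟨d1, d2⟩ := exists_deg_of_invBy hLK.le (le_top.trans L.normalizer_eq_top.ge) θ φ
    ((invBy_of_prim hχ L (mult_trans χ hLK.le θ φ hθ hφ)).mono le_top) hφ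
  set e := nmult hLK.le θ.1 φ.1
  have d3 : e * e ≤ L.relIndex K := by
    refine Nat.le_of_mul_le_mul_right ?_ (charDegree_irr_pos φ)
    rw [← sum_nmult_mul_charDegree hLK.le φ.2.isCharacter, mul_assoc, ← d1]
    exact Finset.single_le_sum (f := fun χ : IrrCharacter K => nmult hLK.le χ.1 φ.1 * charDegree χ.1)
      (fun _ _ => Nat.zero_le _) (Finset.mem_univ θ)
  let π := QuotientGroup.mk' L
  have : (K.map π).Normal := hK.map π (QuotientGroup.mk'_surjective L)
  let _ : CommGroup (K.map π) := { (inferInstance : Group (K.map π)) with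
    mul_comm := by
      rintro ⟨_, a, ha, rfl⟩ ⟨_, b, hb, rfl⟩
      refine Subtype.ext (commutatorElement_eq_one_iff_mul_comm.1 ?_)
      rw [← map_commutatorElement]
      exact (QuotientGroup.eq_one_iff _).2 (h1 (commutator_mem_commutator ha hb)) }
  let c : G →* MulAut (K.map π) := MulAut.conjNormal.comp π
  have hV : Nat.card (K.map π) = L.relIndex K := by rw [← relIndex_ker, QuotientGroup.ker_mk']
  have hmin : ∀ J : Subgroup (G ⧸ L), J.Normal → J ≤ K.map π → J = ⊥ ∨ J = K.map π := by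
    intro J hJ h5
    have h6 : J.comap π ≤ K := by
      simpa [π, comap_map_eq, hLK.le] using comap_mono (f := π) h5
    rw [← map_comap_eq_self_of_surjective (QuotientGroup.mk'_surjective L) J]
    refine h6.lt_or_eq.imp (fun h => ?_) fun h => congrArg _ h
    exact (Subgroup.map_eq_bot_iff _).2 ((hmax ⟨inferInstance, h⟩ (QuotientGroup.le_comap_mk' L J)).trans
      (QuotientGroup.ker_mk' L).ge)
  have hirr : ∀ W : Subgroup (K.map π), (∀ x, ∀ w ∈ W, c x w ∈ W) → W = ⊥ ∨ W = ⊤ := fun W hW =>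
    (hmin (W.map (Subgroup.subtype _)) ⟨by
      rintro _ ⟨w, hw, rfl⟩ g
      obtain ⟨g, rfl⟩ := QuotientGroup.mk'_surjective L g
      exact ⟨_, hW g w hw, rfl⟩⟩ (map_subtype_le W)).imp
      (map_eq_bot_iff_of_injective _ (subtype_injective _)).1 fun h =>
        map_injective (subtype_injective _) (by rw [h, ← MonoidHom.range_eq_map, range_subtype])
  have hcard : (Nat.card K).factorization p =
      (Nat.card L).factorization p + (Nat.card (K.map π)).factorization p := by
    rw [hV, ← Grp.card_mul_relIndex hLK.le, Nat.factorization_mul Nat.card_pos.ne'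
      (hV ▸ Nat.card_pos.ne'), Finsupp.add_apply]
  have hdeg : (charDegree θ.1).factorization p = e.factorization p +
      (charDegree φ.1).factorization p := by
    rw [d1, Nat.factorization_mul hφ (charDegree_irr_pos φ).ne', Finsupp.add_apply]
  have hle : ∀ {a b : ℕ}, b ≠ 0 → a ∣ b → a.factorization p ≤ b.factorization p :=
    fun hb h => (Nat.factorization_le_iff_dvd (ne_zero_of_dvd_ne_zero hb h) hb).2 h p
  have hfx : ∀ g, (Nat.card (fx (c g))).factorization p ≤ (Nat.card (K.map π)).factorization p :=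
    fun g => hle Nat.card_pos.ne' (card_subgroup_dvd_card _)
  have hp' : (∀ v : K.map π, v ^ p = 1) ∨ (Nat.card (K.map π)).factorization p = 0 :=
    (hirr (powMonoidHom p).ker fun x w hw => by
      rw [MonoidHom.mem_ker, powMonoidHom_apply] at hw ⊢
      rw [← map_pow, hw, map_one]).symm.imp (fun h v => h.ge (mem_top v)) fun h =>
      Nat.factorization_eq_zero_of_not_dvd fun h5 => by
        obtain ⟨v, hv⟩ := exists_prime_orderOf_dvd_card' p h5
        have : v = 1 := h.le (show v ^ p = 1 from hv ▸ pow_orderOf_eq_one v)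
        exact hp.out.ne_one (by rw [← hv, this, orderOf_one])
  refine ⟨fun g => Φ g + (Nat.card (fx (c g))).factorization p, fun g => ?_, ?_, fun g x hx => ?_⟩
  · have := card_dvd_mul π (H := K ⊓ centralizer {g}) (K := L)
      (J := (fx (c g)).map (Subgroup.subtype _)) (fun x hx => ⟨⟨π x, x, hx.1, rfl⟩, Subtype.ext (by
        change π g * π x * (π g)⁻¹ = π x
        rw [← map_mul, ← mem_centralizer_singleton_iff.1 hx.2, map_mul, mul_inv_cancel_right]), rfl⟩)
      fun x _ => (QuotientGroup.eq_one_iff x).1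
    rw [card_map_of_injective (subtype_injective _), inf_right_comm, inf_eq_right.2 hLK.le] at this
    refine (hle (Nat.mul_pos Nat.card_pos Nat.card_pos).ne' this).trans ?_
    rw [Nat.factorization_mul Nat.card_pos.ne' Nat.card_pos.ne', Finsupp.add_apply]
    exact Nat.add_le_add_right (h2 g) _
  · suffices ∑ g, ((Nat.card (fx (c g))).factorization p + e.factorization p) ≤
        Nat.card G * (Nat.card (K.map π)).factorization p by
      rw [hcard, hdeg, mul_add]
      simp only [Finset.sum_add_distrib] at h3 this ⊢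
      omega
    by_cases he : e.factorization p = 0
    · simpa [he] using Finset.sum_le_card_nsmul Finset.univ _ _ fun g _ => hfx g
    have he' := hle (hV ▸ Nat.card_pos.ne') d2
    rw [← hV] at he' d2 d3
    have hpV : IsPGroup p (K.map π) := fun v => ⟨1, by simpa using hp'.resolve_right (by omega) v⟩
    obtain ⟨n, hn⟩ := hpV.exists_card_eq
    obtain ⟨i, -, hi⟩ := (Nat.dvd_prime_pow hp.out).1 (hn ▸ d2)
    rw [hi, hn, ← pow_add, Nat.pow_le_pow_iff_right hp.out.one_lt] at d3
    have hc : c ≠ 1 := fun hc => by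
      have : Nontrivial (K.map π) := Finite.one_lt_card_iff_nontrivial.1
        (hn ▸ Nat.one_lt_pow (by rintro rfl; simp [hi, show i = 0 by omega] at he) hp.out.one_lt)
      have : IsSimpleGroup (K.map π) := ⟨fun W _ => hirr W (by simp [hc])⟩
      have := (hn ▸ IsSimpleGroup.prime_card (α := K.map π)).eq_one_of_pow
      simp [hi, show i = 0 by omega] at he
    have := hle (pow_ne_zero _ Nat.card_pos.ne') (prod_dvd hpV c hc hirr)
    rw [Nat.factorization_prod fun _ _ => pow_ne_zero _ Nat.card_pos.ne', Finset.sum_apply'] at this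
    simp only [Nat.factorization_pow, Finsupp.smul_apply, smul_eq_mul, ← Finset.mul_sum, hn, hi,
      hp.out.factorization_self, mul_one, Finset.sum_add_distrib, Finset.sum_const,
      Finset.card_univ, ← Nat.card_eq_fintype_card] at this ⊢
    nlinarith
  · dsimp only
    rcases hp' with h5 | h5
    · have hF : ∀ x ∈ fittingSubgroup G, c x = 1 := fun x hx => MulEquiv.ext fun v => Subtype.ext (by
        have := Solv.fitting_le_centralizer_minNormal _ hmin
          (Grp.map_fitting_le_of_surjective π (QuotientGroup.mk'_surjective L) ⟨x, hx, rfl⟩) v v.2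
        change π x * v * (π x)⁻¹ = v
        rw [← this, mul_inv_cancel_right])
      rw [h4 g x hx, map_mul, eq_one_of_pgroup (fun v => ⟨1, by simpa using h5 v⟩) c hirr M
        (fun ⟨_, y, hy, rfl⟩ => (hM y hy).imp fun k hk => Subtype.ext (by
          simpa using hF _ hk)) hx, mul_one]
    · have := hfx g
      have := hfx (g * x)
      rw [h4 g x hx]
      omega

theorem exists_phi_top [Group.IsSolvable G] {χ : IrrCharacter G}
    (hχ : ¬ ∃ H : Subgroup G, H ≠ ⊤ ∧ ∃ θ : H → ℂ, IsCharacter H θ ∧ indFun H θ = χ.1)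
    (p : ℕ) [hp : Fact p.Prime] (M : Subgroup G) [M.Normal]
    (hM : ∀ x ∈ M, ∃ k, x ^ p ^ k ∈ fittingSubgroup G) : ∃ g : G, ∀ x ∈ M,
      (charDegree χ.1).factorization p ≤ (centralizer {g * x}).index.factorization p := by
  obtain ⟨Φ, h1, h2, h3⟩ := exists_phi hχ p M hM ⊤ inferInstance (top χ)
    (by rw [mult, IsRes.nmult_eq_one _ (isRes_restrict le_top _)]; simp)
  rw [card_top, Nat.card_eq_fintype_card, ← smul_eq_mul, ← Finset.card_univ,
    ← Finset.sum_const] at h2
  obtain ⟨g, -, hg⟩ := Finset.exists_le_of_sum_le Finset.univ_nonempty h2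
  refine ⟨g, fun x hx => ?_⟩
  have h4 := h1 (g * x)
  rw [h3 g x hx, top_inf_eq] at h4
  rw [Finset.card_univ, ← Nat.card_eq_fintype_card, ← (centralizer {g * x}).index_mul_card,
    Nat.factorization_mul index_ne_zero_of_finite Nat.card_pos.ne', Finsupp.add_apply] at hg
  change _ + (charDegree χ.1).factorization p ≤ _ at hg
  omega

end Cfsg.Agent.Char.AvgFix
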