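import Cfsg.Agent.Char.Zeros
import Cfsg.Agent.Block.PPart
import Cfsg.Agent.Block.ModExists

/-!
# Irreducible characters separate the `p`-regular classes modulo a prime over `p`
-/

set_option autoImplicit false
set_option linter.dupNamespace false
set_option linter.unusedSectionVars false

open scoped ComplexConjugate
open Subgroup

namespace Cfsg.Agent.Char
open Cfsg.Agent.Char Cfsg.Agent.Block

variable {G : Type*} [Group G] [Finite G] {p : ℕ} {M : Ideal AlgInt} {χ : G → ℂ}

/-- The average of a character over a coset `u P` with `u` normalising `P` is an algebraic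
integer. -/
theorem Cfsg.IsCharacter.isIntegral_coset_avg (h : IsCharacter G χ) (P : Subgroup G) [Fintype P]
    {u : G} (hu : u ∈ normalizer (P : Set G)) :
    IsIntegral ℤ ((Nat.card P : ℂ)⁻¹ * ∑ s : P, χ (u * s)) := by
  classical
  have := Fintype.ofFinite (P.subgroupOf (normalizer (P : Set G)))
  have h1 := ((h.restrict (normalizer (P : Set G))).cosetAvg
    (P.subgroupOf (normalizer (P : Set G)))).isIntegral ⟨u, hu⟩
  rw [Nat.card_congr (subgroupOfEquivOfLe (le_normalizer (H := P))).toEquiv] at h1
  convert h1 using 2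
  rw [← (subgroupOfEquivOfLe (le_normalizer (H := P))).toEquiv.sum_comp]
  rfl

/-- Two `p`-regular elements at which all irreducible characters agree modulo `M` are
conjugate. -/
theorem isConj_of_val_sub_lt [hp : Fact p.Prime] (hM : IsPModular p M) {u w : G}
    (hu : ¬ p ∣ orderOf u) (hw : ¬ p ∣ orderOf w)
    (h : ∀ χ : IrrCharacter G, val M ((χ : G → ℂ) u - (χ : G → ℂ) w) < 1) : IsConj u w := by
  classical
  by_contra hne
  obtain ⟨S⟩ : Nonempty (Sylow p (centralizer ({u} : Set G))) := inferInstance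
  let P : Subgroup G := (S : Subgroup (centralizer ({u} : Set G))).map (Subgroup.subtype _)
  have := Fintype.ofFinite P
  have hPp : IsPGroup p P := S.isPGroup'.map _
  have hPu : ∀ s ∈ P, Commute s u := by
    rintro _ ⟨s, -, rfl⟩
    exact mem_centralizer_singleton_iff.mp s.2
  have hun : u⁻¹ ∈ normalizer (P : Set G) := inv_mem (centralizer_le_normalizer _
    fun s hs => hPu s hs)
  have hP0 : (Nat.card P : ℂ) ≠ 0 := Nat.cast_ne_zero.mpr Nat.card_pos.ne'
  let c : IrrCharacter G → ℂ := fun χ => (Nat.card P : ℂ)⁻¹ * ∑ s : P, (χ : G → ℂ) (u⁻¹ * s)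
  have hf : ∀ z : G, ¬ p ∣ orderOf z → ∑ χ : IrrCharacter G, c χ * (χ : G → ℂ) z =
      (Nat.card P : ℂ)⁻¹ * if IsConj z u then (Nat.card (centralizer ({z} : Set G)) : ℂ)
        else 0 := by
    intro z hz
    simp only [c, mul_assoc, Finset.sum_mul]
    rw [← Finset.mul_sum, Finset.sum_comm, Finset.sum_eq_single 1, ← sum_irr_mul_conj]
    · congr 1
      refine Finset.sum_congr rfl fun χ _ => ?_
      rw [OneMemClass.coe_one, mul_one, χ.2.isCharacter.map_inv, mul_comm]
    · intro s _ hs
      rw [← sum_irr_mul_conj_of_not_isConj (g := z) (h := (s : G)⁻¹ * u)]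
      · refine Finset.sum_congr rfl fun χ _ => ?_
        rw [← χ.2.isCharacter.map_inv, mul_inv_rev, inv_inv, mul_comm]
      · intro hc
        have h1 := isConj_pPart (p := p) hc
        rw [pPart_eq_one_iff.mpr hz, pPart_mul_eq (hPu s s.2).inv_left
          (orderOf_eq_pow_of_mem hPp (inv_mem s.2)) hu, isConj_one_right] at h1
        exact hs (Subtype.ext (inv_eq_one.mp h1))
    · simp
  have h1 := hf u hu
  have h2 := hf w hw
  rw [if_pos (IsConj.refl u)] at h1
  rw [if_neg (fun h => hne h.symm), mul_zero] at h2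
  have h3 : (Nat.card (centralizer ({u} : Set G)) : ℂ) =
      Nat.card P * (S : Subgroup (centralizer ({u} : Set G))).index := by
    rw [card_map_of_injective (Subgroup.subtype_injective _), ← Nat.cast_mul, card_mul_index]
  rw [h3, inv_mul_cancel_left₀ hP0] at h1
  have h4 : val M ((S : Subgroup (centralizer ({u} : Set G))).index : ℂ) < 1 := by
    rw [← h1, ← sub_zero (∑ χ : IrrCharacter G, _), ← h2, ← Finset.sum_sub_distrib]
    refine val_sum_lt_one fun χ _ => ?_
    rw [← mul_sub]
    exact val_mul_lt_one_right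
      (val_le_one_of_isIntegral (χ.2.isCharacter.isIntegral_coset_avg P hun)) (h χ)
  exact S.not_dvd_index ((val_natCast_lt_one_iff hM _).mp h4)

theorem isConj_pReg_iff_val [hp : Fact p.Prime] (hM : IsPModular p M) {x y : G} :
    IsConj (pReg p x) (pReg p y) ↔
      ∀ χ : IrrCharacter G, val M ((χ : G → ℂ) x - (χ : G → ℂ) y) < 1 := by
  constructor
  · intro h χ
    refine val_sub_trans (val_char_sub_pReg_lt_one hM χ.2.isCharacter x) ?_
    rw [χ.2.isClassFunction.eq_of_isConj h, val_sub_comm]
    exact val_char_sub_pReg_lt_one hM χ.2.isCharacter y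
  · intro h
    refine isConj_of_val_sub_lt hM (not_dvd_orderOf_pReg p x) (not_dvd_orderOf_pReg p y)
      fun χ => ?_
    refine val_sub_trans ?_ (val_sub_trans (h χ) (val_char_sub_pReg_lt_one hM χ.2.isCharacter y))
    rw [val_sub_comm]
    exact val_char_sub_pReg_lt_one hM χ.2.isCharacter x

omit [Finite G] in
theorem val_sub_lt_one_of_pow [hp : Fact p.Prime] (hM : IsPModular p M) {a b : ℂ}
    (ha : val M a ≤ 1) (hb : val M b ≤ 1) {k : ℕ} (h : val M (a ^ p ^ k - b ^ p ^ k) < 1) :
    val M (a - b) < 1 := by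
  have := charP_resField hM
  rw [← red_eq_iff (val_pow_le_one ha _) (val_pow_le_one hb _), red_pow ha, red_pow hb,
    ← sub_eq_zero, ← sub_pow_char_pow] at h
  rw [← red_eq_iff ha hb, ← sub_eq_zero]
  exact pow_eq_zero_iff (pow_ne_zero k hp.out.ne_zero) |>.mp h

end Cfsg.Agent.Char
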